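import Mathlib
import Cfsg.Agent.Lib.Helper19.ZasData

set_option autoImplicit false

/-! Sharply 3-transitive groups of even degree: permutation-theoretic facts. -/

namespace Cfsg.Agent.Lib.Helper19

open MulAction Cfsg.Agent.Lib.Helper6.Zas

/-- the setwise stabiliser of `{a, b}` -/
def swapN (G : Type*) {Ω : Type*} [Group G] [MulAction G Ω] (a b : Ω) : Subgroup G where
  carrier := {g | (g • a = a ∧ g • b = b) ∨ (g • a = b ∧ g • b = a)}
  mul_mem' := by
    rintro x y (⟨h1, h2⟩ | ⟨h1, h2⟩) (⟨h3, h4⟩ | ⟨h3, h4⟩)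
    · left; exact ⟨by rw [mul_smul, h3, h1], by rw [mul_smul, h4, h2]⟩
    · right; exact ⟨by rw [mul_smul, h3, h2], by rw [mul_smul, h4, h1]⟩
    · right; exact ⟨by rw [mul_smul, h3, h1], by rw [mul_smul, h4, h2]⟩
    · left; exact ⟨by rw [mul_smul, h3, h2], by rw [mul_smul, h4, h1]⟩
  one_mem' := by left; exact ⟨one_smul _ _, one_smul _ _⟩
  inv_mem' := by
    rintro x (⟨h1, h2⟩ | ⟨h1, h2⟩)
    · left; exact ⟨by rw [inv_smul_eq_iff, h1], by rw [inv_smul_eq_iff, h2]⟩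
    · right; exact ⟨by rw [inv_smul_eq_iff, h2], by rw [inv_smul_eq_iff, h1]⟩

theorem mem_swapN {G Ω : Type*} [Group G] [MulAction G Ω] {a b : Ω} {g : G} :
    g ∈ swapN G a b ↔ (g • a = a ∧ g • b = b) ∨ (g • a = b ∧ g • b = a) := Iff.rfl

/-- data for a sharply 3-transitive group with an involution in the two point stabiliser -/
structure S3Data (G Ω : Type*) [Group G] [MulAction G Ω] (a b c : Ω) (K : Subgroup G) (t u : G) :
    Prop where
  z : ZData G Ω a b K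
  hca : c ≠ a
  hcb : c ≠ b
  Htrans : ∀ d : Ω, d ≠ a → d ≠ b → ∃ h : G, h • a = a ∧ h • b = b ∧ h • c = d
  ta : t • a = a
  tb : t • b = b
  t1 : t ≠ 1
  t2 : t * t = 1
  ua : u • a = b
  ub : u • b = a
  uc : u • c = c

variable {G Ω : Type*} [Group G] [MulAction G Ω] {a b c : Ω} {K : Subgroup G} {t u : G}

namespace S3Data

theorem u2 (s : S3Data G Ω a b c K t u) : u * u = 1 :=
  s.z.base.three _ a b c s.z.hab s.hcb.symm s.hca.symm (by rw [mul_smul, s.ua, s.ub])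
    (by rw [mul_smul, s.ub, s.ua]) (by rw [mul_smul, s.uc, s.uc])

theorem t_inv (s : S3Data G Ω a b c K t u) : t⁻¹ = t := inv_eq_of_mul_eq_one_left s.t2

theorem u_inv (s : S3Data G Ω a b c K t u) : u⁻¹ = u := inv_eq_of_mul_eq_one_left s.u2

theorem t_fix (s : S3Data G Ω a b c K t u) {d : Ω} (h : t • d = d) : d = a ∨ d = b := by
  by_contra hcon
  push Not at hcon
  exact s.t1 (s.z.base.three t a b d s.z.hab hcon.2.symm hcon.1.symm s.ta s.tb h)

theorem tH (s : S3Data G Ω a b c K t u) : t ∈ stabilizer G a ⊓ stabilizer G b := ⟨s.ta, s.tb⟩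

theorem t_unique (s : S3Data G Ω a b c K t u) [Finite G] {j : G} (ja : j • a = a) (jb : j • b = b)
    (j1 : j ≠ 1) (j2 : j * j = 1) : j = t := by
  obtain ⟨k, hk, hkb⟩ := s.z.Ktrans c s.hca
  have hk1 : k ≠ 1 := by
    rintro rfl
    rw [one_smul] at hkb
    exact s.hcb hkb.symm
  have h1 := s.z.inverts t s.tH s.t1 s.t2 k hk
  have h2 := s.z.inverts j ⟨ja, jb⟩ j1 j2 k hk
  have h3 : (j⁻¹ * t) * k * (j⁻¹ * t)⁻¹ = k := by
    have : (j⁻¹ * t) * k * (j⁻¹ * t)⁻¹ = j⁻¹ * (t * k * t⁻¹) * j := by group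
    rw [this, h1, ← h2]
    group
  have h4 := s.z.free (j⁻¹ * t) ((stabilizer G a ⊓ stabilizer G b).mul_mem
    ((stabilizer G a ⊓ stabilizer G b).inv_mem ⟨ja, jb⟩) s.tH) k hk hk1 h3
  exact (inv_mul_eq_one.mp h4)

theorem t_central (s : S3Data G Ω a b c K t u) [Finite G] {g : G} (hg : g ∈ swapN G a b) :
    g * t * g⁻¹ = t := by
  have hg' := (swapN G a b).inv_mem hg
  apply s.t_unique
  · rcases hg' with ⟨h1, h2⟩ | ⟨h1, h2⟩
    · rw [mul_smul, mul_smul, h1, s.ta]; exact (inv_smul_eq_iff.mp h1).symm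
    · rw [mul_smul, mul_smul, h1, s.tb]; exact (inv_smul_eq_iff.mp h1).symm
  · rcases hg' with ⟨h1, h2⟩ | ⟨h1, h2⟩
    · rw [mul_smul, mul_smul, h2, s.tb]; exact (inv_smul_eq_iff.mp h2).symm
    · rw [mul_smul, mul_smul, h2, s.ta]; exact (inv_smul_eq_iff.mp h2).symm
  · intro h
    apply s.t1
    have : t = g⁻¹ * (g * t * g⁻¹) * g := by group
    rw [this, h]; group
  · have : g * t * g⁻¹ * (g * t * g⁻¹) = g * (t * t) * g⁻¹ := by group
    rw [this, s.t2]; group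

theorem uN (s : S3Data G Ω a b c K t u) : u ∈ swapN G a b := Or.inr ⟨s.ua, s.ub⟩

theorem tu_comm (s : S3Data G Ω a b c K t u) [Finite G] : u * t = t * u := by
  have := s.t_central s.uN
  rw [mul_inv_eq_iff_eq_mul] at this
  exact this

/-- an involution swapping `a, b` with a fixed point is `H`-conjugate to `u` -/
theorem conj_u (s : S3Data G Ω a b c K t u) {d : G} {p : Ω} (da : d • a = b) (db : d • b = a)
    (dp : d • p = p) : ∃ h : G, h • a = a ∧ h • b = b ∧ d = h * u * h⁻¹ := by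
  have hpa : p ≠ a := by
    rintro rfl
    exact s.z.hab (dp.symm.trans da)
  have hpb : p ≠ b := by
    rintro rfl
    exact s.z.hab (db.symm.trans dp)
  obtain ⟨h, ha, hb, hc⟩ := s.Htrans p hpa hpb
  have ha' : h⁻¹ • a = a := by rw [inv_smul_eq_iff, ha]
  have hb' : h⁻¹ • b = b := by rw [inv_smul_eq_iff, hb]
  refine ⟨h, ha, hb, ?_⟩
  have h1 : u⁻¹ * (h⁻¹ * d * h) = 1 := by
    apply s.z.base.three _ a b c s.z.hab s.hcb.symm s.hca.symm
    · rw [mul_smul, mul_smul, mul_smul, ha, da, hb', inv_smul_eq_iff, s.ua]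
    · rw [mul_smul, mul_smul, mul_smul, hb, db, ha', inv_smul_eq_iff, s.ub]
    · rw [mul_smul, mul_smul, mul_smul, hc, dp, ← hc, inv_smul_smul, inv_smul_eq_iff, s.uc]
  have h2 : h⁻¹ * d * h = u := (inv_mul_eq_one.mp h1).symm
  rw [← h2]; group

/-- a conjugate of `t` moving `a` is conjugate to `u` under the stabiliser of `a` -/
theorem conj_u' (s : S3Data G Ω a b c K t u) (x : G) (hx : (x * t * x⁻¹) • a ≠ a) :
    ∃ β : G, β • a = a ∧ β * (x * t * x⁻¹) * β⁻¹ = u := by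
  set d := x * t * x⁻¹ with hd
  have hdd : d * d = 1 := by
    have : d * d = x * (t * t) * x⁻¹ := by rw [hd]; group
    rw [this, s.t2]; group
  obtain ⟨k, hk, hkb⟩ := s.z.Ktrans (d • a) hx
  have hka : k • a = a := s.z.Kfix k hk
  have hka' : k⁻¹ • a = a := by rw [inv_smul_eq_iff, hka]
  obtain ⟨h, ha, hb, he⟩ := s.conj_u (d := k⁻¹ * d * k) (p := k⁻¹ • x • a)
    (by rw [mul_smul, mul_smul, hka, ← hkb, inv_smul_smul])
    (by rw [mul_smul, mul_smul, hkb, ← mul_smul d d, hdd, one_smul, hka'])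
    (by
      rw [mul_smul, mul_smul, smul_inv_smul, hd, mul_smul, mul_smul, inv_smul_smul, s.ta])
  refine ⟨h⁻¹ * k⁻¹, by rw [mul_smul, hka', inv_smul_eq_iff, ha], ?_⟩
  have : h⁻¹ * k⁻¹ * d * (h⁻¹ * k⁻¹)⁻¹ = h⁻¹ * (k⁻¹ * d * k) * h := by group
  rw [this, he]; group

/-- a conjugate of `t` mapping `a` to `b` is `H`-conjugate to `u` -/
theorem conj_u'' (s : S3Data G Ω a b c K t u) (y : G) (hy : (y * t * y⁻¹) • a = b) :
    ∃ h : G, h • a = a ∧ h • b = b ∧ y * t * y⁻¹ = h * u * h⁻¹ := by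
  apply s.conj_u (p := y • a) hy
  · rw [← hy, ← mul_smul]
    have : y * t * y⁻¹ * (y * t * y⁻¹) = y * (t * t) * y⁻¹ := by group
    rw [this, s.t2]; simp
  · rw [mul_smul, mul_smul, inv_smul_smul, s.ta]

/-- the conjugates of `t` fixing `a` -/
theorem conj_t_fix (s : S3Data G Ω a b c K t u) [Finite G] (x : G)
    (hx : (x * t * x⁻¹) • a = a) : ∃ y : G, y • a = a ∧ x * t * x⁻¹ = y * t * y⁻¹ := by
  have h1 : t • (x⁻¹ • a) = x⁻¹ • a := by
    rw [mul_smul, mul_smul] at hx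
    rw [eq_inv_smul_iff, hx]
  rcases s.t_fix h1 with h | h
  · exact ⟨x, by rw [← h, smul_inv_smul, h], rfl⟩
  · refine ⟨x * u, by rw [mul_smul, s.ua, ← h, smul_inv_smul], ?_⟩
    have : x * u * t * (x * u)⁻¹ = x * (u * t * u⁻¹) * x⁻¹ := by group
    rw [this, s.t_central s.uN]

theorem conj_t_fix_iff (s : S3Data G Ω a b c K t u) (x : G) :
    (x * t * x⁻¹) • a = a ↔ (x⁻¹ • a = a ∨ x⁻¹ • a = b) := by
  constructor
  · intro hx
    have h1 : t • (x⁻¹ • a) = x⁻¹ • a := by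
      rw [mul_smul, mul_smul] at hx
      rw [eq_inv_smul_iff, hx]
    exact s.t_fix h1
  · rintro (h | h)
    · rw [mul_smul, mul_smul, h, s.ta]; exact (inv_smul_eq_iff.mp h).symm
    · rw [mul_smul, mul_smul, h, s.tb]; exact (inv_smul_eq_iff.mp h).symm

/-- non-identity elements of `K` are conjugate under `H` -/
theorem K_conj (s : S3Data G Ω a b c K t u) {k k' : G} (hk : k ∈ K) (hk' : k' ∈ K) (hk1 : k ≠ 1)
    (hk1' : k' ≠ 1) : ∃ h : G, h * k * h⁻¹ = k' := by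
  have e1 : k • b ≠ b := fun h => hk1 (s.z.Kfree k hk b s.z.hab.symm h)
  have e2 : k' • b ≠ b := fun h => hk1' (s.z.Kfree k' hk' b s.z.hab.symm h)
  have e3 : k • b ≠ a := s.z.smul_ne (s.z.Kfix k hk) s.z.hab.symm
  have e4 : k' • b ≠ a := s.z.smul_ne (s.z.Kfix k' hk') s.z.hab.symm
  obtain ⟨h₁, a1, b1, c1⟩ := s.Htrans _ e3 e1
  obtain ⟨h₂, a2, b2, c2⟩ := s.Htrans _ e4 e2
  refine ⟨h₂ * h₁⁻¹, ?_⟩
  have a1' : h₁⁻¹ • a = a := by rw [inv_smul_eq_iff, a1]
  have b1' : h₁⁻¹ • b = b := by rw [inv_smul_eq_iff, b1]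
  have a2' : h₂⁻¹ • a = a := by rw [inv_smul_eq_iff, a2]
  have b2' : h₂⁻¹ • b = b := by rw [inv_smul_eq_iff, b2]
  have hm : h₂ * h₁⁻¹ * k * (h₂ * h₁⁻¹)⁻¹ ∈ K :=
    s.z.Knorm _ (by rw [mul_smul, a1', a2]) k hk
  have h3 : (k'⁻¹ * (h₂ * h₁⁻¹ * k * (h₂ * h₁⁻¹)⁻¹)) • b = b := by
    have : k'⁻¹ * (h₂ * h₁⁻¹ * k * (h₂ * h₁⁻¹)⁻¹) = k'⁻¹ * h₂ * h₁⁻¹ * k * h₁ * h₂⁻¹ := by group
    rw [this, mul_smul, mul_smul, mul_smul, mul_smul, mul_smul, b2', b1, ← c1, inv_smul_smul, c2,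
      inv_smul_smul]
  have h4 := s.z.Kfree _ (K.mul_mem (K.inv_mem hk') hm) b s.z.hab.symm h3
  exact (inv_mul_eq_one.mp h4).symm

theorem K_conj_mem (s : S3Data G Ω a b c K t u) {k x : G} (hk : k ∈ K) (hk1 : k ≠ 1)
    (hx : (x⁻¹ * k * x) • a = a) : x • a = a := by
  by_contra hxa
  apply hk1
  apply s.z.Kfree k hk (x • a) hxa
  rw [mul_smul, mul_smul, inv_smul_eq_iff] at hx
  exact hx

/-- the elements of `K t` are conjugate to `t` under `K` -/
theorem Kt_conj (s : S3Data G Ω a b c K t u) [Finite G] (hodd : Odd (Nat.card K)) {k : G}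
    (hk : k ∈ K) : ∃ k' ∈ K, k' * t * k'⁻¹ = k * t := by
  obtain ⟨r, hr⟩ := hodd
  have h1 : k ^ (Nat.card K) = 1 := by
    have := pow_card_eq_one' (G := K) (x := ⟨k, hk⟩)
    exact congrArg Subtype.val this
  refine ⟨k ^ (r + 1), K.pow_mem hk _, ?_⟩
  have h2 := s.z.inverts t s.tH s.t1 s.t2 _ (K.inv_mem (K.pow_mem hk (r + 1)))
  rw [inv_inv] at h2
  have h3 : k ^ (r + 1) * t * (k ^ (r + 1))⁻¹ = k ^ (r + 1) * (t * (k ^ (r + 1))⁻¹ * t⁻¹) * t := by
    group
  rw [h3, h2, ← pow_add]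
  have : r + 1 + (r + 1) = Nat.card K + 1 := by omega
  rw [this, pow_succ, h1, one_mul]

/-- the centraliser of `u` in `N` -/
theorem cent_u (s : S3Data G Ω a b c K t u) [Finite G] {g : G} (hg : g ∈ swapN G a b) :
    g * u * g⁻¹ = u ↔ (g = 1 ∨ g = t ∨ g = u ∨ g = t * u) := by
  have htc : t • c ≠ c := by
    intro h
    rcases s.t_fix h with h | h
    · exact s.hca h
    · exact s.hcb h
  have hutc : u • t • c = t • c := by rw [← mul_smul, s.tu_comm, mul_smul, s.uc]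
  have u1 : u ≠ 1 := by
    rintro rfl
    have := s.ua
    rw [one_smul] at this
    exact s.z.hab this
  have key : ∀ h : G, h • a = a → h • b = b → h * u * h⁻¹ = u → h = 1 ∨ h = t := by
    intro h ha hb hu
    have h1 : u • h • c = h • c := by
      rw [mul_inv_eq_iff_eq_mul] at hu
      rw [← mul_smul, ← hu, mul_smul, s.uc]
    by_cases h2 : h • c = c
    · left
      exact s.z.base.three h a b c s.z.hab s.hcb.symm s.hca.symm ha hb h2
    · right
      have h3 : h • c = t • c := by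
        by_contra h3
        exact u1 (s.z.base.three u c (t • c) (h • c) htc.symm (Ne.symm h3) (Ne.symm h2) s.uc hutc h1)
      have h4 : t⁻¹ * h = 1 := by
        apply s.z.base.three _ a b c s.z.hab s.hcb.symm s.hca.symm
        · rw [mul_smul, ha, inv_smul_eq_iff, s.ta]
        · rw [mul_smul, hb, inv_smul_eq_iff, s.tb]
        · rw [mul_smul, h3, inv_smul_smul]
      exact (inv_mul_eq_one.mp h4).symm
  constructor
  · intro hu
    rcases hg with ⟨ha, hb⟩ | ⟨ha, hb⟩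
    · rcases key g ha hb hu with h | h
      · exact Or.inl h
      · exact Or.inr (Or.inl h)
    · have h5 : (g * u) * u * (g * u)⁻¹ = u := by
        have : (g * u) * u * (g * u)⁻¹ = g * u * g⁻¹ := by group
        rw [this, hu]
      rcases key (g * u) (by rw [mul_smul, s.ua, hb]) (by rw [mul_smul, s.ub, ha]) h5 with h | h
      · right; right; left
        rw [← s.u_inv]; exact eq_inv_of_mul_eq_one_left h
      · right; right; right
        rw [← h, mul_assoc, s.u2, mul_one]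
  · rintro (rfl | rfl | rfl | rfl)
    · group
    · rw [← s.tu_comm]; group
    · group
    · have : t * u * u * (t * u)⁻¹ = t * u * t⁻¹ := by group
      rw [this, ← s.tu_comm]; group

end S3Data

end Cfsg.Agent.Lib.Helper19
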