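import Mathlib
import Cfsg.Agent.Lib.Helper19.S3Perm

set_option autoImplicit false

/-! Sharply 3-transitive groups of even degree: decompositions and counting. -/

namespace Cfsg.Agent.Lib.Helper19

open MulAction Cfsg.Agent.Lib.Helper6.Zas

variable {G Ω : Type*} [Group G] [MulAction G Ω] {a b c : Ω} {K : Subgroup G} {t u : G}

theorem H_le_N : stabilizer G a ⊓ stabilizer G b ≤ swapN G a b := fun _ hg => Or.inl ⟨hg.1, hg.2⟩

/-- the projection of the point stabiliser onto the two point stabiliser -/
theorem ZData.exists_proj (z : ZData G Ω a b K) :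
    ∃ f : stabilizer G a →* ↥(stabilizer G a ⊓ stabilizer G b),
      ∀ (k : G) (_ : k ∈ K) (h : ↥(stabilizer G a ⊓ stabilizer G b))
        (hm : k * h ∈ stabilizer G a), f ⟨k * h, hm⟩ = h := by
  have hdec : ∀ g : stabilizer G a, ∃ h : ↥(stabilizer G a ⊓ stabilizer G b), ∃ k ∈ K,
      (g : G) = k * h := by
    intro g
    obtain ⟨k, hk, h, hh, he⟩ := z.stab g g.2
    exact ⟨⟨h, hh⟩, k, hk, he⟩
  have uniq : ∀ k ∈ K, ∀ k' ∈ K, ∀ h h' : ↥(stabilizer G a ⊓ stabilizer G b),
      k * (h : G) = k' * h' → h = h' := by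
    intro k hk k' hk' h h' he
    have h1 : k'⁻¹ * k = h' * (h : G)⁻¹ := by
      rw [inv_mul_eq_iff_eq_mul, ← mul_assoc, ← he]; group
    have h2 : (k'⁻¹ * k) • b = b := by
      rw [h1, mul_smul, inv_smul_eq_iff.mpr (mem_stabilizer_iff.mp h.2.2).symm,
        mem_stabilizer_iff.mp h'.2.2]
    have h3 := z.Kfree _ (K.mul_mem (K.inv_mem hk') hk) b z.hab.symm h2
    rw [h3] at h1
    apply Subtype.ext
    exact (mul_inv_eq_one.mp h1.symm).symm
  choose η κ hκ hη using hdec
  refine ⟨MonoidHom.mk' η ?_, ?_⟩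
  · intro g₁ g₂
    apply uniq (κ (g₁ * g₂)) (hκ _) (κ g₁ * ((η g₁ : G) * κ g₂ * (η g₁ : G)⁻¹))
      (K.mul_mem (hκ _) (z.Knorm _ (η g₁).2.1 _ (hκ _)))
    rw [← hη (g₁ * g₂), Subgroup.coe_mul, Subgroup.coe_mul]
    conv_lhs => rw [hη g₁, hη g₂]
    group
  · intro k hk h hm
    exact uniq _ (hκ _) k hk _ _ (hη ⟨k * h, hm⟩).symm

namespace S3Data

/-- `N = H ⊔ H u` -/
noncomputable def eN (s : S3Data G Ω a b c K t u) :
    ↥(stabilizer G a ⊓ stabilizer G b) ⊕ ↥(stabilizer G a ⊓ stabilizer G b) ≃ swapN G a b :=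
  Equiv.ofBijective (Sum.elim (fun h => Subgroup.inclusion H_le_N h)
    (fun h => Subgroup.inclusion H_le_N h * ⟨u, s.uN⟩)) (by
    constructor
    · rintro (h | h) (h' | h') he
      · have : (h : G) = h' := congrArg (fun z : swapN G a b => (z : G)) he
        rw [Subtype.ext this]
      · exfalso
        have h1 : (h : G) = h' * u := congrArg (fun z : swapN G a b => (z : G)) he
        have h2 : (h : G) • a = a := h.2.1
        rw [h1, mul_smul, s.ua, mem_stabilizer_iff.mp h'.2.2] at h2
        exact s.z.hab h2.symm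
      · exfalso
        have h1 : (h : G) * u = h' := congrArg (fun z : swapN G a b => (z : G)) he
        have h2 : (h' : G) • a = a := h'.2.1
        rw [← h1, mul_smul, s.ua, mem_stabilizer_iff.mp h.2.2] at h2
        exact s.z.hab h2.symm
      · have : (h : G) * u = h' * u := congrArg (fun z : swapN G a b => (z : G)) he
        rw [Subtype.ext (mul_right_cancel this)]
    · rintro ⟨g, ⟨ha, hb⟩ | ⟨ha, hb⟩⟩
      · exact ⟨Sum.inl ⟨g, ha, hb⟩, rfl⟩
      · refine ⟨Sum.inr ⟨g * u⁻¹, ?_, ?_⟩, ?_⟩
        · show (g * u⁻¹) • a = a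
          rw [s.u_inv, mul_smul, s.ua, hb]
        · show (g * u⁻¹) • b = b
          rw [s.u_inv, mul_smul, s.ub, ha]
        · apply Subtype.ext
          show g * u⁻¹ * u = g
          group)

theorem sum_N (s : S3Data G Ω a b c K t u) [Fintype ↥(stabilizer G a ⊓ stabilizer G b)]
    [Fintype (swapN G a b)] (F : swapN G a b → ℂ) :
    ∑ z, F z = ∑ h : ↥(stabilizer G a ⊓ stabilizer G b), F (Subgroup.inclusion H_le_N h)
      + ∑ h : ↥(stabilizer G a ⊓ stabilizer G b), F (Subgroup.inclusion H_le_N h * ⟨u, s.uN⟩) := by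
  rw [← s.eN.sum_comp, Fintype.sum_sum_type]
  rfl

theorem card_N (s : S3Data G Ω a b c K t u) [Finite G] :
    Nat.card (swapN G a b) = 2 * Nat.card ↥(stabilizer G a ⊓ stabilizer G b) := by
  rw [← Nat.card_congr s.eN, Nat.card_sum, two_mul]

theorem card_cent_u (s : S3Data G Ω a b c K t u) [Finite G] :
    Nat.card {z : swapN G a b // z * ⟨u, s.uN⟩ * z⁻¹ = ⟨u, s.uN⟩} = 4 := by
  classical
  have := Fintype.ofFinite (swapN G a b)
  have u1 : u ≠ 1 := by
    rintro rfl
    have := s.ua
    rw [one_smul] at this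
    exact s.z.hab this
  have tu : t ≠ u := by
    rintro rfl
    exact s.z.hab (s.ta.symm.trans s.ua)
  have tu1 : t * u ≠ 1 := by
    intro h
    have h1 : (t * u) • a = b := by rw [mul_smul, s.ua, s.tb]
    rw [h, one_smul] at h1
    exact s.z.hab h1
  have hf : (Finset.univ.filter (fun z : swapN G a b => z * ⟨u, s.uN⟩ * z⁻¹ = ⟨u, s.uN⟩))
      = {1, ⟨t, H_le_N s.tH⟩, ⟨u, s.uN⟩, ⟨t, H_le_N s.tH⟩ * ⟨u, s.uN⟩} := by
    ext z
    simp only [Finset.mem_filter, Finset.mem_univ, true_and, Finset.mem_insert,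
      Finset.mem_singleton]
    have := s.cent_u z.2
    constructor
    · intro h
      have h' : (z : G) * u * (z : G)⁻¹ = u := congrArg Subtype.val h
      rcases this.1 h' with h | h | h | h
      · exact Or.inl (Subtype.ext h)
      · exact Or.inr (Or.inl (Subtype.ext h))
      · exact Or.inr (Or.inr (Or.inl (Subtype.ext h)))
      · exact Or.inr (Or.inr (Or.inr (Subtype.ext h)))
    · intro h
      apply Subtype.ext
      apply this.2
      rcases h with h | h | h | h
      · exact Or.inl (congrArg Subtype.val h)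
      · exact Or.inr (Or.inl (congrArg Subtype.val h))
      · exact Or.inr (Or.inr (Or.inl (congrArg Subtype.val h)))
      · exact Or.inr (Or.inr (Or.inr (congrArg Subtype.val h)))
  rw [Nat.card_eq_fintype_card, Fintype.card_subtype, hf, Finset.card_insert_of_notMem,
    Finset.card_insert_of_notMem, Finset.card_insert_of_notMem, Finset.card_singleton]
  · simp only [Finset.mem_singleton]
    intro h
    have h' : u = t * u := congrArg Subtype.val h
    exact s.t1 (by simpa using h')
  · simp only [Finset.mem_insert, Finset.mem_singleton, not_or]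
    refine ⟨fun h => tu (congrArg Subtype.val h), fun h => ?_⟩
    have h' : t = t * u := congrArg Subtype.val h
    exact u1 (by simpa using h')
  · simp only [Finset.mem_insert, Finset.mem_singleton, not_or]
    exact ⟨fun h => s.t1 (congrArg Subtype.val h).symm, fun h => u1 (congrArg Subtype.val h).symm,
      fun h => tu1 (congrArg Subtype.val h).symm⟩

section count

variable [Fintype G] [DecidableEq G] [Fintype Ω] [DecidableEq Ω]

theorem card_conj_fix (s : S3Data G Ω a b c K t u) {m : ℕ}
    (hm : Nat.card ↥(stabilizer G a ⊓ stabilizer G b) = m) (hΩ : Fintype.card Ω = m + 2) :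
    (Finset.univ.filter (fun x : G => (x * t * x⁻¹) • a = a)).card = 2 * ((m + 1) * m) := by
  have h1 : (Finset.univ.filter (fun x : G => (x * t * x⁻¹) • a = a))
      = (Finset.univ.filter (fun x : G => x • a = a)) ∪ (Finset.univ.filter (fun x : G => x • b = a)) := by
    ext x
    simp only [Finset.mem_filter, Finset.mem_univ, true_and, Finset.mem_union]
    rw [s.conj_t_fix_iff, inv_smul_eq_iff, inv_smul_eq_iff, eq_comm, @eq_comm _ a (x • b)]
  have h2 : Disjoint (Finset.univ.filter (fun x : G => x • a = a))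
      (Finset.univ.filter (fun x : G => x • b = a)) := by
    rw [Finset.disjoint_filter]
    intro x _ h3 h4
    exact s.z.hab (MulAction.injective x (h3.trans h4.symm))
  have h3 := s.z.base.card_stab1 s.z.hab hm (h := m + 1) hΩ a
  have h4 : (Finset.univ.filter (fun x : G => x • b = a)).card
      = (Finset.univ.filter (fun x : G => x • a = a)).card := by
    apply Finset.card_bij (fun x _ => x * u)
    · intro x hx
      simp only [Finset.mem_filter, Finset.mem_univ, true_and] at hx ⊢
      rw [mul_smul, s.ua, hx]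
    · intro x _ y _ h
      exact mul_right_cancel h
    · intro y hy
      simp only [Finset.mem_filter, Finset.mem_univ, true_and] at hy
      refine ⟨y * u⁻¹, ?_, by group⟩
      simp only [Finset.mem_filter, Finset.mem_univ, true_and]
      rw [s.u_inv, mul_smul, s.ub, hy]
  rw [h1, Finset.card_union_of_disjoint h2, h4, h3, two_mul]

theorem card_conj_swap (s : S3Data G Ω a b c K t u) {m : ℕ}
    (hm : Nat.card ↥(stabilizer G a ⊓ stabilizer G b) = m) (hΩ : Fintype.card Ω = m + 2) :
    (Finset.univ.filter (fun y : G => (y * t * y⁻¹) • a = b)).card = m * m := by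
  have h1 := Finset.card_eq_sum_card_fiberwise
    (s := Finset.univ.filter (fun y : G => (y * t * y⁻¹) • a = b))
    (t := ((Finset.univ : Finset Ω).erase a).erase b) (f := fun y => y⁻¹ • a) (by
      intro y hy
      simp only [Finset.coe_filter, Finset.mem_univ, true_and, Set.mem_ofPred_eq] at hy
      have hne : (y * t * y⁻¹) • a ≠ a := by rw [hy]; exact s.z.hab.symm
      rw [Ne, s.conj_t_fix_iff, not_or] at hne
      simp only [Finset.coe_erase, Finset.coe_univ, Set.mem_sdiff, Set.mem_univ, true_and,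
        Set.mem_singleton_iff]
      exact ⟨hne.1, hne.2⟩)
  rw [h1, Finset.sum_congr rfl (g := fun _ => m), Finset.sum_const,
    Finset.card_erase_of_mem (by simp [s.z.hab.symm]), Finset.card_erase_of_mem (Finset.mem_univ _),
    Finset.card_univ, hΩ, smul_eq_mul]
  · rfl
  intro p hp
  have hpb : p ≠ b := Finset.ne_of_mem_erase hp
  have hpa : p ≠ a := Finset.ne_of_mem_erase (Finset.mem_of_mem_erase hp)
  have htp : p ≠ t • p := by
    intro h
    rcases s.t_fix h.symm with h | h
    · exact hpa h
    · exact hpb h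
  rw [← s.z.base.card_filter_coset s.z.hab hm s.z.hab htp]
  apply Finset.card_bij (fun y _ => y⁻¹)
  · intro y hy
    simp only [Finset.mem_filter, Finset.mem_univ, true_and] at hy ⊢
    refine ⟨hy.2, ?_⟩
    rw [← hy.2, ← hy.1, mul_smul, mul_smul, inv_smul_smul]
  · intro x _ y _ h
    exact inv_injective h
  · intro w hw
    simp only [Finset.mem_filter, Finset.mem_univ, true_and] at hw
    refine ⟨w⁻¹, ?_, inv_inv w⟩
    simp only [Finset.mem_filter, Finset.mem_univ, true_and, inv_inv]
    refine ⟨?_, hw.1⟩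
    rw [mul_smul, mul_smul, hw.1, ← hw.2, inv_smul_smul]

end count

end S3Data

end Cfsg.Agent.Lib.Helper19
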