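import Mathlib
import Cfsg.Agent.Lib.Helper19.S3Perm2
import Cfsg.Agent.Lib.Helper15.LinearMul
import Cfsg.Agent.Lib.Helper15.LinearHom
import Cfsg.Agent.Lib.Helper81.Compl
import Cfsg.Agent.Lib.Helper80.Linear

set_option autoImplicit false

/-! Sharply 3-transitive groups of even degree: a character of `N` of value `±1` at `u`. -/

namespace Cfsg.Agent.Lib.Helper19

open MulAction Cfsg Cfsg.Agent.Lib Cfsg.Agent.Lib.Helper6.Zas Cfsg.Agent.Lib.Helper15
open scoped ComplexConjugate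

/-- character values at involutions are rational integers (after helper74) -/
theorem char_invol_int' {G : Type*} [Group G] [Finite G] {χ : G → ℂ} (hχ : IsCharacter G χ) {t : G}
    (ht : t * t = 1) : ∃ z : ℤ, χ t = z := by
  classical
  obtain ⟨H, hH⟩ : ∃ H : Subgroup G, H = Subgroup.zpowers t := ⟨_, rfl⟩
  have htH : t ∈ H := by rw [hH]; exact Subgroup.mem_zpowers t
  have hcomm : ∀ a b : H, a * b = b * a := by
    intro a b
    apply Subtype.ext
    have ha : (a : G) ∈ Subgroup.zpowers t := by rw [← hH]; exact a.2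
    have hb : (b : G) ∈ Subgroup.zpowers t := by rw [← hH]; exact b.2
    obtain ⟨i, hi⟩ := Subgroup.mem_zpowers_iff.1 ha
    obtain ⟨j, hj⟩ := Subgroup.mem_zpowers_iff.1 hb
    simp only [Subgroup.coe_mul]
    rw [← hi, ← hj, ← zpow_add, ← zpow_add, add_comm]
  have : Fintype H := Fintype.ofFinite _
  have hres : IsCharacter H (fun x : H => χ x) := Helper15.char_restrict hχ H
  have hexp := Helper15.cf_expansion (Helper15.char_cf hres)
  have hval := congrFun hexp ⟨t, htH⟩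
  simp only [Finset.sum_apply, Pi.smul_apply, smul_eq_mul] at hval
  have hterm : ∀ l : IrrCharacter H, ∃ z : ℤ,
      classInner (fun x : H => χ x) (l : H → ℂ) * (l : H → ℂ) ⟨t, htH⟩ = z := by
    intro l
    obtain ⟨n, hn⟩ := Helper15.inner_nat hres (irr_char l.2)
    have h1 := Helper80.char_one_eq_one_of_comm hcomm l
    have h2 := Helper80.char_mul_of_degree_one (irr_char l.2) h1 ⟨t, htH⟩ ⟨t, htH⟩
    have h3 : (⟨t, htH⟩ : H) * ⟨t, htH⟩ = 1 := Subtype.ext ht
    rw [h3, h1] at h2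
    rcases mul_self_eq_one_iff.1 h2.symm with h | h
    · exact ⟨n, by rw [hn, h]; simp⟩
    · exact ⟨-n, by rw [hn, h]; simp⟩
  choose z hz using hterm
  refine ⟨∑ l, z l, ?_⟩
  rw [hval]
  push_cast
  exact Finset.sum_congr rfl (fun l _ => hz l)

theorem exists_irr_of_cent_four {N : Type*} [Group N] [Finite N] (sg : N →* ℂˣ) (u : N)
    (hu : u * u = 1) (hsg : sg u = -1) (hc : Nat.card {z : N // z * u * z⁻¹ = u} = 4) :
    ∃ ψ : N → ℂ, IsIrrCharacter N ψ ∧ ψ u ^ 2 = 1 ∧ ψ ≠ (fun _ => 1) ∧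
      ψ ≠ (fun z => (sg z : ℂ)) := by
  classical
  have h1 := Helper81.second_orth u u
  rw [hc] at h1
  have hint : ∀ χ : IrrCharacter N, ∃ z : ℤ, (χ : N → ℂ) u = z :=
    fun χ => char_invol_int' (irr_char χ.2) hu
  choose zf hzf using hint
  have h2 : ∑ χ : IrrCharacter N, (zf χ) ^ 2 = 4 := by
    have : ((∑ χ : IrrCharacter N, (zf χ) ^ 2 : ℤ) : ℂ) = 4 := by
      push_cast at h1 ⊢
      rw [← h1]
      apply Finset.sum_congr rfl
      intro χ _
      rw [hzf, map_intCast, sq]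
    exact_mod_cast this
  let χ₁ : IrrCharacter N := ⟨fun _ => 1, Helper74.isIrrCharacter_one⟩
  let χ₂ : IrrCharacter N := ⟨fun z => sg z, Helper74.isIrrCharacter_of_hom sg⟩
  have z1 : zf χ₁ = 1 := by
    have : ((zf χ₁ : ℤ) : ℂ) = 1 := (hzf χ₁).symm
    exact_mod_cast this
  have z2 : zf χ₂ = -1 := by
    have : ((zf χ₂ : ℤ) : ℂ) = -1 := by
      rw [← hzf χ₂]
      show ((sg u : ℂˣ) : ℂ) = -1
      rw [hsg]; simp
    exact_mod_cast this
  have hne : χ₁ ≠ χ₂ := by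
    intro h
    rw [h, z2] at z1
    omega
  have h3 : ∑ χ ∈ (Finset.univ.erase χ₁).erase χ₂, (zf χ) ^ 2 = 2 := by
    have e1 := Finset.add_sum_erase Finset.univ (fun χ => (zf χ) ^ 2) (Finset.mem_univ χ₁)
    have e2 := Finset.add_sum_erase (Finset.univ.erase χ₁) (fun χ => (zf χ) ^ 2)
      (Finset.mem_erase.2 ⟨hne.symm, Finset.mem_univ χ₂⟩)
    simp only [z1, z2] at e1 e2
    rw [h2] at e1
    linarith
  obtain ⟨χ, hχ, hχ0⟩ : ∃ χ ∈ (Finset.univ.erase χ₁).erase χ₂, (zf χ) ^ 2 ≠ 0 := by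
    by_contra hcon
    push Not at hcon
    rw [Finset.sum_eq_zero hcon] at h3
    omega
  have hle : (zf χ) ^ 2 ≤ 2 := by
    rw [← h3]
    exact Finset.single_le_sum (f := fun χ => (zf χ) ^ 2) (fun i _ => sq_nonneg _) hχ
  have hsq : (zf χ) ^ 2 = 1 := by
    have h4 : -2 < zf χ := by nlinarith
    have h5 : zf χ < 2 := by nlinarith
    have h6 : zf χ ≠ 0 := by
      intro h
      rw [h] at hχ0
      exact hχ0 (by norm_num)
    have : zf χ = -1 ∨ zf χ = 1 := by omega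
    rcases this with h | h <;> rw [h] <;> norm_num
  refine ⟨χ, χ.2, ?_, ?_, ?_⟩
  · rw [hzf]
    exact_mod_cast hsq
  · intro h
    have : χ = χ₁ := Subtype.ext h
    rw [this] at hχ
    simp at hχ
  · intro h
    have : χ = χ₂ := Subtype.ext h
    rw [this] at hχ
    simp at hχ

variable {G Ω : Type*} [Group G] [MulAction G Ω] {a b c : Ω} {K : Subgroup G} {t u : G}

namespace S3Data

/-- the sign character of `N` -/
noncomputable def sgn (s : S3Data G Ω a b c K t u) : swapN G a b →* ℂˣ := by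
  classical
  exact MonoidHom.mk' (fun z => if (z : G) • a = a then 1 else -1) (by
    rintro ⟨x, hx⟩ ⟨y, hy⟩
    have hab := s.z.hab
    rcases hx with ⟨h1, h2⟩ | ⟨h1, h2⟩ <;> rcases hy with ⟨h3, h4⟩ | ⟨h3, h4⟩ <;>
      simp [mul_smul, h1, h2, h3, h4, hab, hab.symm])

theorem sgn_H (s : S3Data G Ω a b c K t u) (h : ↥(stabilizer G a ⊓ stabilizer G b)) :
    s.sgn (Subgroup.inclusion H_le_N h) = 1 := by
  have : (h : G) • a = a := h.2.1
  simp [sgn, this]

theorem sgn_u (s : S3Data G Ω a b c K t u) : s.sgn ⟨u, s.uN⟩ = -1 := by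
  simp [sgn, s.ua, s.z.hab.symm]

theorem exists_psi (s : S3Data G Ω a b c K t u) [Finite G] :
    ∃ ψ : swapN G a b → ℂ, IsIrrCharacter (swapN G a b) ψ ∧ ψ ⟨u, s.uN⟩ ^ 2 = 1 ∧
      IsIrrCharacter ↥(stabilizer G a ⊓ stabilizer G b)
        (fun h => ψ (Subgroup.inclusion H_le_N h)) ∧
      ∃ h : ↥(stabilizer G a ⊓ stabilizer G b), ψ (Subgroup.inclusion H_le_N h) ≠ 1 := by
  classical
  have := Fintype.ofFinite (swapN G a b)
  have := Fintype.ofFinite ↥(stabilizer G a ⊓ stabilizer G b)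
  obtain ⟨ψ, hψ, hu2, hne1, hne2⟩ := exists_irr_of_cent_four s.sgn ⟨u, s.uN⟩
    (Subtype.ext s.u2) s.sgn_u s.card_cent_u
  have hm0 : (Nat.card ↥(stabilizer G a ⊓ stabilizer G b) : ℂ) ≠ 0 := card_ne_zero _
  have hirr2 : IsIrrCharacter (swapN G a b) (toFn s.sgn * ψ) :=
    irr_linear_mul (char_toFn _) (toFn_one' _) hψ
  have hu0 : ψ ⟨u, s.uN⟩ ≠ 0 := by
    intro h
    rw [h] at hu2
    norm_num at hu2
  have hne3 : toFn s.sgn * ψ ≠ ψ := by
    intro h
    have h1 := congrFun h ⟨u, s.uN⟩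
    rw [Pi.mul_apply, toFn_apply, s.sgn_u] at h1
    apply hu0
    have h2 : -ψ ⟨u, s.uN⟩ = ψ ⟨u, s.uN⟩ := by simpa using h1
    linear_combination (-1 / 2 : ℂ) * h2
  have o1 : classInner (toFn s.sgn * ψ) ψ = 0 := irr_inner_ne hirr2 hψ hne3
  have o2 : classInner ψ ψ = 1 := irr_inner_self hψ
  have o3 : classInner ψ (fun _ => 1) = 0 := irr_inner_ne hψ Helper74.isIrrCharacter_one hne1
  have o4 : classInner ψ (fun z => (s.sgn z : ℂ)) = 0 :=
    irr_inner_ne hψ (Helper74.isIrrCharacter_of_hom _) hne2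
  unfold classInner at o1 o2 o3 o4
  rw [s.sum_N, s.card_N] at o1 o2 o3 o4
  simp only [Pi.mul_apply, toFn_apply, map_mul, s.sgn_H, s.sgn_u, Units.val_one, one_mul,
    Units.val_neg, neg_mul, Finset.sum_neg_distrib, map_one, mul_one, map_neg, mul_neg] at o1 o2 o3 o4
  push_cast at o1 o2 o3 o4
  set X := ∑ h : ↥(stabilizer G a ⊓ stabilizer G b),
    ψ (Subgroup.inclusion H_le_N h) * conj (ψ (Subgroup.inclusion H_le_N h)) with hX
  set Y := ∑ h : ↥(stabilizer G a ⊓ stabilizer G b),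
    ψ (Subgroup.inclusion H_le_N h * ⟨u, s.uN⟩) * conj (ψ (Subgroup.inclusion H_le_N h * ⟨u, s.uN⟩))
    with hY
  have hXm : X = (Nat.card ↥(stabilizer G a ⊓ stabilizer G b) : ℂ) := by
    field_simp at o1 o2
    linear_combination (1 / 2 : ℂ) * o1 + (1 / 2 : ℂ) * o2
  refine ⟨ψ, hψ, hu2, ?_, ?_⟩
  · rw [isIrr_iff]
    refine ⟨Helper3.IsCharacter.comp_hom (irr_char hψ) (Subgroup.inclusion H_le_N), ?_⟩
    unfold classInner
    rw [← hX, hXm]
    field_simp
  · by_contra hcon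
    push Not at hcon
    simp only [hcon, Finset.sum_const, Finset.card_univ, nsmul_eq_mul, mul_one,
      ← Nat.card_eq_fintype_card] at o3 o4
    field_simp at o3 o4
    apply hm0
    linear_combination (1 / 2 : ℂ) * o3 + (1 / 2 : ℂ) * o4

end S3Data

end Cfsg.Agent.Lib.Helper19
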