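import Mathlib
import Cfsg.Agent.Lib.Helper19.S3CharN
import Cfsg.Agent.Lib.Helper81.Avg

set_option autoImplicit false

/-! Sharply 3-transitive groups of even degree: the induced character and its constituents. -/

namespace Cfsg.Agent.Lib.Helper19

open MulAction Cfsg Cfsg.Agent.Lib Cfsg.Agent.Lib.Helper6.Zas Cfsg.Agent.Lib.Helper15
open scoped ComplexConjugate

theorem sum_const_off_one {X : Type*} [Group X] [Fintype X] (F w : X → ℂ) (c : ℂ)
    (hF : ∀ x, x ≠ 1 → F x = c) : ∑ x, F x * w x = c * ∑ x, w x + (F 1 - c) * w 1 := by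
  classical
  have h : ∀ x, F x * w x = c * w x + (if x = 1 then (F 1 - c) * w 1 else 0) := by
    intro x
    by_cases h : x = 1
    · subst h; simp; ring
    · simp [h, hF x h]
  simp_rw [h, Finset.sum_add_distrib, ← Finset.mul_sum]
  simp

theorem exists_nontrivial_hom {A : Type*} [Group A] [Finite A] (hc : ∀ x y : A, x * y = y * x)
    {a : A} (ha : a ≠ 1) : ∃ μ : A →* ℂˣ, μ a ≠ 1 := by
  letI : CommGroup A := { ‹Group A› with mul_comm := hc }
  exact CommGroup.exists_apply_ne_one_of_hasEnoughRootsOfUnity A ℂ ha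

theorem inner_add_ne_zero {X : Type*} [Group X] [Fintype X] {α β θ : X → ℂ} (hα : IsCharacter X α)
    (hβ : IsCharacter X β) (hθ : IsIrrCharacter X θ) (h : classInner α θ ≠ 0) :
    classInner (α + β) θ ≠ 0 := by
  obtain ⟨p, hp⟩ := inner_nat hα (irr_char hθ)
  obtain ⟨q, hq⟩ := inner_nat hβ (irr_char hθ)
  rw [classInner_add_left, hp, hq]
  rw [hp] at h
  have : p ≠ 0 := by
    rintro rfl
    exact h (by simp)
  exact_mod_cast (by omega : p + q ≠ 0)

/-- a character with an additive invariant `aG` equal to `2e`, all of whose constituents have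
invariant at least `e`, is irreducible or a sum of two irreducible characters -/
theorem decomp_aux {X : Type*} [Group X] [Fintype X] (aG : (X → ℂ) → ℂ)
    (hadd : ∀ x y, aG (x + y) = aG x + aG y)
    (hnat : ∀ χ, IsCharacter X χ → ∃ n : ℕ, aG χ = n)
    (Θ : X → ℂ) (hΘ : IsCharacter X Θ) (hΘ0 : Θ ≠ 0) (e : ℕ) (he : 0 < e) (hΘa : aG Θ = 2 * e)
    (hge : ∀ θ, IsIrrCharacter X θ → classInner Θ θ ≠ 0 → ∃ g : ℕ, aG θ = e + g) :
    IsIrrCharacter X Θ ∨ ∃ θ₁ θ₂, IsIrrCharacter X θ₁ ∧ IsIrrCharacter X θ₂ ∧ Θ = θ₁ + θ₂ ∧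
      aG θ₁ = e ∧ aG θ₂ = e ∧ classInner Θ θ₁ ≠ 0 ∧ classInner Θ θ₂ ≠ 0 := by
  obtain ⟨θ₁, h1, n1⟩ := exists_constituent hΘ hΘ0
  have c1 : IsCharacter X (Θ - θ₁) := char_sub_irr hΘ h1 n1
  by_cases z1 : Θ - θ₁ = 0
  · left
    rw [sub_eq_zero.1 z1]; exact h1
  right
  obtain ⟨θ₂, h2, n2⟩ := exists_constituent c1 z1
  have n2' : classInner Θ θ₂ ≠ 0 := by
    have := inner_add_ne_zero c1 (irr_char h1) h2 n2
    rwa [sub_add_cancel] at this
  have c2 : IsCharacter X (Θ - θ₁ - θ₂) := char_sub_irr c1 h2 n2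
  obtain ⟨g1, hg1⟩ := hge θ₁ h1 n1
  obtain ⟨g2, hg2⟩ := hge θ₂ h2 n2'
  obtain ⟨r, hr⟩ := hnat _ c2
  have e1 : aG Θ = aG (Θ - θ₁ - θ₂) + aG θ₂ + aG θ₁ := by
    rw [← hadd, ← hadd, sub_add_cancel, sub_add_cancel]
  rw [hΘa, hr, hg1, hg2] at e1
  have e2 : 2 * e = r + (e + g2) + (e + g1) := by exact_mod_cast e1
  have r0 : r = 0 := by omega
  have g10 : g1 = 0 := by omega
  have g20 : g2 = 0 := by omega
  have z2 : Θ - θ₁ - θ₂ = 0 := by
    by_contra z2
    obtain ⟨θ₃, h3, n3⟩ := exists_constituent c2 z2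
    have n3' : classInner Θ θ₃ ≠ 0 := by
      have := inner_add_ne_zero (inner_add_ne_zero c2 (irr_char h2) h3 n3 |> fun _ => c1) (irr_char h1) h3
        (by
          have := inner_add_ne_zero c2 (irr_char h2) h3 n3
          rwa [sub_add_cancel] at this)
      rwa [sub_add_cancel] at this
    obtain ⟨g3, hg3⟩ := hge θ₃ h3 n3'
    have c3 := char_sub_irr c2 h3 n3
    obtain ⟨r', hr'⟩ := hnat _ c3
    have e3 : aG (Θ - θ₁ - θ₂) = aG (Θ - θ₁ - θ₂ - θ₃) + aG θ₃ := by
      rw [← hadd, sub_add_cancel]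
    rw [hr, hr', hg3] at e3
    have e4 : r = r' + (e + g3) := by exact_mod_cast e3
    omega
  refine ⟨θ₁, θ₂, h1, h2, ?_, ?_, ?_, n1, n2'⟩
  · rw [sub_sub, sub_eq_zero] at z2
    exact z2
  · rw [hg1, g10]; simp
  · rw [hg2, g20]; simp

variable {G Ω : Type*} [Group G] [MulAction G Ω] {a b c : Ω} {K : Subgroup G} {t u : G}

theorem ZData.K_le (z : ZData G Ω a b K) : K ≤ stabilizer G a := fun k hk => z.Kfix k hk

theorem ZData.KB_normal (z : ZData G Ω a b K) : (K.subgroupOf (stabilizer G a)).Normal := by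
  constructor
  intro n hn g
  rw [Subgroup.mem_subgroupOf] at hn ⊢
  exact z.Knorm g g.2 n hn

theorem ZData.card_KB (z : ZData G Ω a b K) :
    Nat.card (K.subgroupOf (stabilizer G a)) = Nat.card K :=
  Nat.card_congr (Subgroup.subgroupOfEquivOfLe z.K_le).toEquiv

namespace S3Data

/-- degrees: `β 1 = A + m E` -/
theorem degree_form (s : S3Data G Ω a b c K t u) [Finite G]
    [Fintype (K.subgroupOf (stabilizer G a))] {m : ℕ} (hK : Nat.card K = m + 1)
    {β : stabilizer G a → ℂ} (hβ : IsCharacter (stabilizer G a) β) (c₀ : ℂ)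
    (hc : ∀ k : K.subgroupOf (stabilizer G a), k ≠ 1 → β k = c₀) :
    ∃ A E : ℕ, classInner (fun k : K.subgroupOf (stabilizer G a) => β k) (fun _ => 1) = A ∧
      β 1 = A + m * E := by
  have hcomm : ∀ x y : K.subgroupOf (stabilizer G a), x * y = y * x := by
    intro x y
    apply Subtype.ext
    apply Subtype.ext
    exact s.z.K_comm t s.tH s.t1 s.t2 _ (Subgroup.mem_subgroupOf.1 x.2) _
      (Subgroup.mem_subgroupOf.1 y.2)
  obtain ⟨k, hk, hkb⟩ := s.z.Ktrans c s.hca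
  have hk1 : (⟨⟨k, s.z.K_le hk⟩, Subgroup.mem_subgroupOf.2 hk⟩ : K.subgroupOf (stabilizer G a)) ≠ 1 := by
    intro h
    have h' : k = 1 := congrArg (fun x : K.subgroupOf (stabilizer G a) => ((x : stabilizer G a) : G)) h
    rw [h', one_smul] at hkb
    exact s.hcb hkb.symm
  obtain ⟨μ, hμ⟩ := exists_nontrivial_hom hcomm hk1
  have hres : IsCharacter (K.subgroupOf (stabilizer G a))
      (fun k : K.subgroupOf (stabilizer G a) => β k) := char_restrict hβ _
  obtain ⟨A, hA⟩ := inner_nat hres (irr_char (Helper74.isIrrCharacter_one))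
  obtain ⟨E, hE⟩ := inner_nat hres (irr_char (Helper74.isIrrCharacter_of_hom μ))
  have hμ1 : classInner (fun _ : K.subgroupOf (stabilizer G a) => (1 : ℂ)) (fun k => (μ k : ℂ)) = 0 := by
    apply irr_inner_ne Helper74.isIrrCharacter_one (Helper74.isIrrCharacter_of_hom μ)
    intro h
    apply hμ
    have := congrFun h ⟨⟨k, s.z.K_le hk⟩, Subgroup.mem_subgroupOf.2 hk⟩
    exact Units.ext this.symm
  refine ⟨A, E, hA, ?_⟩
  have hn0 : (Nat.card (K.subgroupOf (stabilizer G a)) : ℂ) ≠ 0 := card_ne_zero _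
  unfold classInner at hA hE hμ1
  rw [sum_const_off_one _ _ c₀ hc] at hA hE
  simp only [one_mul] at hμ1
  have hμ2 : ∑ x : K.subgroupOf (stabilizer G a), conj ((μ x : ℂˣ) : ℂ) = 0 := by
    rcases mul_eq_zero.1 hμ1 with h | h
    · exact absurd (inv_eq_zero.1 h) hn0
    · exact h
  rw [hμ2] at hE
  simp only [map_one, Finset.sum_const, Finset.card_univ, nsmul_eq_mul, mul_one, mul_zero,
    zero_add, Units.val_one, ← Nat.card_eq_fintype_card] at hA hE
  rw [s.z.card_KB, hK] at hA hE hn0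
  push_cast at hA hE hn0
  field_simp at hA hE
  have h3 : ((m : ℂ) + 1) * (β 1) = ((m : ℂ) + 1) * (A + m * E) := by
    linear_combination hA + (m : ℂ) * hE
  exact mul_left_cancel₀ hn0 h3

/-- a character of `B` without `K`-fixed vectors vanishes at `t` -/
theorem vanish (s : S3Data G Ω a b c K t u) [Finite G] [Fintype (stabilizer G a)]
    [Fintype (K.subgroupOf (stabilizer G a))] (hodd : Odd (Nat.card K))
    {γ : stabilizer G a → ℂ} (hγ : IsCharacter (stabilizer G a) γ)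
    (h0 : classInner (fun k : K.subgroupOf (stabilizer G a) => γ k) (fun _ => 1) = 0) :
    γ ⟨t, s.ta⟩ = 0 := by
  haveI := s.z.KB_normal
  have c1 := Helper81.char_avg (K.subgroupOf (stabilizer G a)) hγ
  have z1 : Helper81.avg (K.subgroupOf (stabilizer G a)) γ = 0 :=
    Helper74.IsCharacter.eq_zero_of_one_eq_zero c1 (by rw [Helper81.avg_one]; exact h0)
  have h1 := congrFun z1 ⟨t, s.ta⟩
  rw [Helper81.avg_apply] at h1
  have h2 : ∀ n : K.subgroupOf (stabilizer G a), γ (n * ⟨t, s.ta⟩) = γ ⟨t, s.ta⟩ := by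
    intro n
    obtain ⟨k', hk', he⟩ := s.Kt_conj hodd (Subgroup.mem_subgroupOf.1 n.2)
    have h3 : ((n : stabilizer G a) * ⟨t, s.ta⟩) = (⟨k', s.z.K_le hk'⟩ : stabilizer G a) * ⟨t, s.ta⟩
        * (⟨k', s.z.K_le hk'⟩ : stabilizer G a)⁻¹ := Subtype.ext he.symm
    rw [h3]
    exact char_cf hγ _ _
  simp only [h2, Finset.sum_const, Finset.card_univ, nsmul_eq_mul, Pi.zero_apply,
    ← Nat.card_eq_fintype_card] at h1
  have hn0 : (Nat.card (K.subgroupOf (stabilizer G a)) : ℂ) ≠ 0 := card_ne_zero _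
  field_simp at h1
  exact h1

end S3Data

end Cfsg.Agent.Lib.Helper19
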