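import Mathlib
import Cfsg.Agent.Lib.Helper19.S3Ind

set_option autoImplicit false

/-! Sharply 3-transitive groups of even degree: the induced character and its constituents, II. -/

namespace Cfsg.Agent.Lib.Helper19

open MulAction Cfsg Cfsg.Agent.Lib Cfsg.Agent.Lib.Helper6.Zas Cfsg.Agent.Lib.Helper15
open scoped ComplexConjugate

variable {G Ω : Type*} [Group G] [MulAction G Ω] {a b c : Ω} {K : Subgroup G} {t u : G}

namespace S3Data

theorem indFun_K (s : S3Data G Ω a b c K t u) [Fintype G] (φ : stabilizer G a → ℂ) (e : ℂ)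
    (hφK : ∀ k : stabilizer G a, (k : G) ∈ K → φ k = e) {k : G} (hk : k ∈ K) (hk1 : k ≠ 1) :
    indFun (stabilizer G a) φ k = e := by
  classical
  rw [indFun_apply]
  have h : ∀ x : G, extendByZero (stabilizer G a) φ (x⁻¹ * k * x)
      = if x ∈ stabilizer G a then e else 0 := by
    intro x
    split_ifs with hx
    · have hm : x⁻¹ * k * x ∈ K := by
        have := s.z.Knorm x⁻¹ ((stabilizer G a).inv_mem hx) k hk
        rwa [inv_inv] at this
      rw [extendByZero_mem (stabilizer G a) φ (s.z.K_le hm)]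
      exact hφK _ hm
    · apply extendByZero_not_mem
      intro hm
      exact hx (s.K_conj_mem hk hk1 hm)
  simp_rw [h]
  rw [Finset.sum_ite, Finset.sum_const, Finset.sum_const_zero, add_zero, nsmul_eq_mul]
  have h2 : (Finset.univ.filter (fun x : G => x ∈ stabilizer G a)).card
      = Nat.card (stabilizer G a) := by
    rw [Nat.card_eq_fintype_card, Fintype.card_subtype]
  rw [h2]
  have : (Nat.card (stabilizer G a) : ℂ) ≠ 0 := card_ne_zero _
  field_simp

theorem inner_phi_K (s : S3Data G Ω a b c K t u) [Finite G]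
    [Fintype (K.subgroupOf (stabilizer G a))] (φ : stabilizer G a → ℂ) (e : ℂ)
    (hφK : ∀ k : stabilizer G a, (k : G) ∈ K → φ k = e) :
    classInner (fun k : K.subgroupOf (stabilizer G a) => φ k) (fun _ => 1) = e := by
  unfold classInner
  have h : ∀ k : K.subgroupOf (stabilizer G a), φ k * conj (1 : ℂ) = e := by
    intro k
    rw [hφK _ (Subgroup.mem_subgroupOf.1 k.2), map_one, mul_one]
  simp only [h, Finset.sum_const, Finset.card_univ, nsmul_eq_mul, ← Nat.card_eq_fintype_card]
  have : (Nat.card (K.subgroupOf (stabilizer G a)) : ℂ) ≠ 0 := card_ne_zero _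
  field_simp

theorem constituent (s : S3Data G Ω a b c K t u) [Fintype G] [Fintype (stabilizer G a)]
    [Fintype (K.subgroupOf (stabilizer G a))] {m : ℕ} (hK : Nat.card K = m + 1)
    (hodd : Odd (Nat.card K)) {φ : stabilizer G a → ℂ} {e : ℕ}
    (hφ : IsIrrCharacter (stabilizer G a) φ)
    (hφK : ∀ k : stabilizer G a, (k : G) ∈ K → φ k = e) {θ : G → ℂ} (hθ : IsIrrCharacter G θ)
    (hne : classInner (indFun (stabilizer G a) φ) θ ≠ 0) :
    classInner (fun x : stabilizer G a => θ x) φ ≠ 0 ∧ ∃ g E : ℕ,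
      classInner (fun k : K.subgroupOf (stabilizer G a) => θ k) (fun _ => 1) = e + g ∧
      θ 1 = (e + g) + m * E ∧ (g = 0 → θ t = φ ⟨t, s.ta⟩) := by
  have hres : IsCharacter (stabilizer G a) (fun x : stabilizer G a => θ x) :=
    char_restrict (irr_char hθ) _
  have h1 : classInner (fun x : stabilizer G a => θ x) φ ≠ 0 := by
    rw [inner_comm_of_char hres (irr_char hφ), ← classInner_indFun_left _ _ _ (irr_cf hθ)]
    exact hne
  refine ⟨h1, ?_⟩
  have hγ := char_sub_irr hres hφ h1
  set γ : stabilizer G a → ℂ := (fun x : stabilizer G a => θ x) - φ with hγd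
  obtain ⟨g, hg⟩ := inner_nat (char_restrict hγ (K.subgroupOf (stabilizer G a)))
    (irr_char (Helper74.isIrrCharacter_one))
  have h2 : classInner (fun k : K.subgroupOf (stabilizer G a) => θ k) (fun _ => 1) = e + g := by
    rw [← hg, ← s.inner_phi_K φ e hφK, ← classInner_add_left]
    congr 1
    funext k
    simp [hγd]
  obtain ⟨k₀, hk₀, hkb⟩ := s.z.Ktrans c s.hca
  have hk1 : k₀ ≠ 1 := by
    rintro rfl
    rw [one_smul] at hkb
    exact s.hcb hkb.symm
  obtain ⟨A, E, hA, hE⟩ := s.degree_form hK hres (θ k₀) (by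
    intro k hk
    have hk' : ((k : stabilizer G a) : G) ≠ 1 := by
      intro h
      exact hk (Subtype.ext (Subtype.ext h))
    obtain ⟨h, hh⟩ := s.K_conj hk₀ (Subgroup.mem_subgroupOf.1 k.2) hk1 hk'
    show θ ((k : stabilizer G a) : G) = θ k₀
    rw [← hh]
    exact irr_cf hθ _ _)
  refine ⟨g, E, h2, ?_, ?_⟩
  · have : (A : ℂ) = e + g := by rw [← hA, ← h2]
    rw [← this]
    exact hE
  · intro g0
    rw [g0] at hg
    have := s.vanish hodd hγ (by rw [hg]; simp)
    rw [hγd, Pi.sub_apply, sub_eq_zero] at this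
    exact this

theorem decomp (s : S3Data G Ω a b c K t u) [Fintype G] [Fintype (stabilizer G a)]
    [Fintype (K.subgroupOf (stabilizer G a))] {m : ℕ} (hK : Nat.card K = m + 1)
    (hidx : (stabilizer G a).index = m + 2)
    (hodd : Odd (Nat.card K)) {φ : stabilizer G a → ℂ} {e : ℕ}
    (hφ : IsIrrCharacter (stabilizer G a) φ)
    (hφK : ∀ k : stabilizer G a, (k : G) ∈ K → φ k = e) (he : 0 < e) :
    IsIrrCharacter G (indFun (stabilizer G a) φ) ∨ ∃ (θ₁ θ₂ : G → ℂ) (E₁ E₂ : ℕ),
      IsIrrCharacter G θ₁ ∧ IsIrrCharacter G θ₂ ∧ indFun (stabilizer G a) φ = θ₁ + θ₂ ∧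
      θ₁ t = φ ⟨t, s.ta⟩ ∧ θ₂ t = φ ⟨t, s.ta⟩ ∧ θ₁ 1 = e + m * E₁ ∧ θ₂ 1 = e + m * E₂ ∧
      classInner (fun x : stabilizer G a => θ₁ x) φ ≠ 0 ∧
      classInner (fun x : stabilizer G a => θ₂ x) φ ≠ 0 := by
  have hn0 : (Nat.card (K.subgroupOf (stabilizer G a)) : ℂ) ≠ 0 := card_ne_zero _
  have key := decomp_aux
    (fun θ : G → ℂ => classInner (fun k : K.subgroupOf (stabilizer G a) => θ k) (fun _ => 1))
    (fun x y => by
      show classInner (fun k : K.subgroupOf (stabilizer G a) => (x + y) k) (fun _ => 1) = _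
      rw [← classInner_add_left]
      rfl)
    (fun χ hχ => inner_nat (char_restrict (char_restrict hχ (stabilizer G a)) _)
      (irr_char (Helper74.isIrrCharacter_one)))
    (indFun (stabilizer G a) φ) (char_indFun _ (irr_char hφ)) (indFun_ne_zero_of_irr _ hφ) e he
    (by
      show classInner (fun k : K.subgroupOf (stabilizer G a) =>
        indFun (stabilizer G a) φ k) (fun _ => 1) = _
      unfold classInner
      rw [sum_const_off_one _ _ (e : ℂ) (by
        intro k hk
        apply s.indFun_K φ e hφK (Subgroup.mem_subgroupOf.1 k.2)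
        intro h
        exact hk (Subtype.ext (Subtype.ext h)))]
      have h1 : indFun (stabilizer G a) φ (((1 : K.subgroupOf (stabilizer G a)) : stabilizer G a) : G)
          = ((m : ℂ) + 2) * e := by
        show indFun (stabilizer G a) φ 1 = _
        rw [indFun_one, hidx, hφK 1 K.one_mem]
        push_cast; ring
      rw [h1]
      simp only [map_one, Finset.sum_const, Finset.card_univ, nsmul_eq_mul, mul_one,
        ← Nat.card_eq_fintype_card]
      rw [s.z.card_KB, hK] at hn0 ⊢
      push_cast at hn0 ⊢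
      field_simp
      ring)
    (fun θ hθ hne => by
      obtain ⟨-, g, E, h1, -, -⟩ := s.constituent hK hodd hφ hφK hθ hne
      exact ⟨g, h1⟩)
  rcases key with h | ⟨θ₁, θ₂, h1, h2, hsum, a1, a2, n1, n2⟩
  · exact Or.inl h
  right
  obtain ⟨c1, g1, E₁, i1, d1, v1⟩ := s.constituent hK hodd hφ hφK h1 n1
  obtain ⟨c2, g2, E₂, i2, d2, v2⟩ := s.constituent hK hodd hφ hφK h2 n2
  have g10 : g1 = 0 := by
    have : (e : ℂ) = e + g1 := by rw [← i1]; exact a1.symm
    have : e = e + g1 := by exact_mod_cast this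
    omega
  have g20 : g2 = 0 := by
    have : (e : ℂ) = e + g2 := by rw [← i2]; exact a2.symm
    have : e = e + g2 := by exact_mod_cast this
    omega
  subst g10 g20
  refine ⟨θ₁, θ₂, E₁, E₂, h1, h2, hsum, v1 rfl, v2 rfl, ?_, ?_, c1, c2⟩
  · rw [d1]; simp
  · rw [d2]; simp

end S3Data

end Cfsg.Agent.Lib.Helper19
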