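import Mathlib
import Cfsg.Agent.Lib.Helper19.S3Ind2
import Cfsg.Agent.Lib.Helper81.Schur

set_option autoImplicit false

/-! Sharply 3-transitive groups of even degree: the key identity. -/

namespace Cfsg.Agent.Lib.Helper19

open MulAction Cfsg Cfsg.Agent.Lib Cfsg.Agent.Lib.Helper6.Zas Cfsg.Agent.Lib.Helper15
open scoped ComplexConjugate

variable {G Ω : Type*} [Group G] [MulAction G Ω] {a b c : Ω} {K : Subgroup G} {t u : G}

/-- the inflation to `B` of the restriction to `H` of a function on `N` -/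
def phi (f : stabilizer G a →* ↥(stabilizer G a ⊓ stabilizer G b)) (ψ : swapN G a b → ℂ) :
    stabilizer G a → ℂ := fun x => ψ (Subgroup.inclusion H_le_N (f x))

/-- sums of an irreducible character over products of two conjugates -/
theorem sum_irr_conj_conj {X : Type*} [Group X] [Fintype X] {θ : X → ℂ} (hθ : IsIrrCharacter X θ)
    (t : X) : ∑ x : X, ∑ y : X, θ (x * t * x⁻¹ * (y * t * y⁻¹))
      = (Fintype.card X : ℂ) ^ 2 * θ t ^ 2 / θ 1 := by
  have h : ∀ x : X, ∑ y : X, θ (x * t * x⁻¹ * (y * t * y⁻¹))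
      = (Fintype.card X : ℂ) * θ t * θ t / θ 1 := by
    intro x
    rw [Helper81.IsIrrCharacter.sum_mul_conj hθ, irr_cf hθ t x]
  simp_rw [h]
  rw [Finset.sum_const, Finset.card_univ, nsmul_eq_mul]
  ring

/-- sums of an induced function over products of two conjugates -/
theorem sum_ind_conj_conj {X : Type*} [Group X] [Fintype X] (B : Subgroup X) (φ : B → ℂ) (t : X) :
    ∑ x : X, ∑ y : X, indFun B φ (x * t * x⁻¹ * (y * t * y⁻¹))
      = (Nat.card B : ℂ)⁻¹ * (Fintype.card X : ℂ) *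
        ∑ x : X, ∑ y : X, extendByZero B φ (x * t * x⁻¹ * (y * t * y⁻¹)) := by
  have h : ∀ w : X, ∑ x : X, ∑ y : X, extendByZero B φ (w⁻¹ * (x * t * x⁻¹ * (y * t * y⁻¹)) * w)
      = ∑ x : X, ∑ y : X, extendByZero B φ (x * t * x⁻¹ * (y * t * y⁻¹)) := by
    intro w
    apply Fintype.sum_equiv (Equiv.mulLeft w⁻¹)
    intro x
    apply Fintype.sum_equiv (Equiv.mulLeft w⁻¹)
    intro y
    simp only [Equiv.coe_mulLeft]
    congr 1
    group
  simp_rw [indFun_apply, ← Finset.mul_sum]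
  rw [mul_assoc]
  congr 1
  rw [Finset.sum_congr rfl (fun x _ => Finset.sum_comm), Finset.sum_comm]
  simp_rw [h]
  rw [Finset.sum_const, Finset.card_univ, nsmul_eq_mul]

namespace S3Data

section

variable (s : S3Data G Ω a b c K t u)
  (f : stabilizer G a →* ↥(stabilizer G a ⊓ stabilizer G b))
  (hf : ∀ (k : G) (_ : k ∈ K) (h : ↥(stabilizer G a ⊓ stabilizer G b))
        (hm : k * h ∈ stabilizer G a), f ⟨k * h, hm⟩ = h)
  (ψ : swapN G a b → ℂ)

include hf

theorem f_H (g : G) (hg : g ∈ stabilizer G a ⊓ stabilizer G b) : f ⟨g, hg.1⟩ = ⟨g, hg⟩ := by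
  have h1 := hf 1 K.one_mem ⟨g, hg⟩ (by rw [one_mul]; exact hg.1)
  rw [← h1]
  congr 1
  exact Subtype.ext (one_mul g).symm

theorem f_K (k : G) (hk : k ∈ K) (hkB : k ∈ stabilizer G a) : f ⟨k, hkB⟩ = 1 := by
  have h1 := hf k hk 1 (by rw [Subgroup.coe_one, mul_one]; exact hkB)
  rw [← h1]
  congr 1
  exact Subtype.ext (mul_one k).symm

theorem f_surj : Function.Surjective f := fun h => ⟨⟨h, h.2.1⟩, f_H f hf h h.2⟩

theorem phi_K (k : stabilizer G a) (hk : (k : G) ∈ K) : phi f ψ k = ψ 1 := by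
  unfold phi
  rw [f_K f hf k hk k.2]
  rfl

theorem ext_H (g : G) (hg : g ∈ stabilizer G a ⊓ stabilizer G b) :
    extendByZero (stabilizer G a) (phi f ψ) g = ψ ⟨g, H_le_N hg⟩ := by
  rw [extendByZero_mem _ _ hg.1]
  unfold phi
  rw [f_H f hf g hg]
  rfl

omit hf in
theorem ext_conj (hψ : IsClassFunction (swapN G a b) ψ) (β g : G) (hβ : β • a = a) :
    extendByZero (stabilizer G a) (phi f ψ) (β * g * β⁻¹)
      = extendByZero (stabilizer G a) (phi f ψ) g := by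
  by_cases hg : g ∈ stabilizer G a
  · have hm : β * g * β⁻¹ ∈ stabilizer G a :=
      (stabilizer G a).mul_mem ((stabilizer G a).mul_mem hβ hg) ((stabilizer G a).inv_mem hβ)
    rw [extendByZero_mem _ _ hg, extendByZero_mem _ _ hm]
    unfold phi
    have : (⟨β * g * β⁻¹, hm⟩ : stabilizer G a) = ⟨β, hβ⟩ * ⟨g, hg⟩ * ⟨β, hβ⟩⁻¹ := rfl
    rw [this, map_mul, map_mul, map_inv, map_mul, map_mul, map_inv]
    exact hψ _ _
  · rw [extendByZero_not_mem _ _ hg, extendByZero_not_mem]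
    intro hm
    apply hg
    have := (stabilizer G a).mul_mem ((stabilizer G a).mul_mem ((stabilizer G a).inv_mem hβ) hm) hβ
    have e : β⁻¹ * (β * g * β⁻¹) * β = g := by group
    rwa [e] at this

include s in
theorem f_conj_t [Finite G] (x : G) (hx : (x * t * x⁻¹) • a = a) :
    f ⟨x * t * x⁻¹, hx⟩ = ⟨t, s.tH⟩ := by
  obtain ⟨y, hy, he⟩ := s.conj_t_fix x hx
  have h1 : (⟨x * t * x⁻¹, hx⟩ : stabilizer G a) = ⟨y, hy⟩ * ⟨t, s.ta⟩ * ⟨y, hy⟩⁻¹ :=
    Subtype.ext he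
  rw [h1, map_mul, map_mul, map_inv, f_H f hf t s.tH]
  apply Subtype.ext
  exact s.t_central (H_le_N (f ⟨y, hy⟩).2)

include s in
theorem ext_fix_fix [Finite G] (x y : G) (hx : (x * t * x⁻¹) • a = a)
    (hy : (y * t * y⁻¹) • a = a) :
    extendByZero (stabilizer G a) (phi f ψ) (x * t * x⁻¹ * (y * t * y⁻¹)) = ψ 1 := by
  have hm : x * t * x⁻¹ * (y * t * y⁻¹) ∈ stabilizer G a := (stabilizer G a).mul_mem hx hy
  rw [extendByZero_mem _ _ hm]
  unfold phi
  have : (⟨x * t * x⁻¹ * (y * t * y⁻¹), hm⟩ : stabilizer G a)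
      = ⟨x * t * x⁻¹, hx⟩ * ⟨y * t * y⁻¹, hy⟩ := rfl
  rw [this, map_mul, s.f_conj_t f hf x hx, s.f_conj_t f hf y hy]
  have h2 : (⟨t, s.tH⟩ : ↥(stabilizer G a ⊓ stabilizer G b)) * ⟨t, s.tH⟩ = 1 := Subtype.ext s.t2
  rw [h2]
  rfl

end

end S3Data

end Cfsg.Agent.Lib.Helper19
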