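import Mathlib
import Cfsg.Agent.Lib.Helper19.S3Key

set_option autoImplicit false

/-! Sharply 3-transitive groups of even degree: the key identity, II. -/

namespace Cfsg.Agent.Lib.Helper19

open MulAction Cfsg Cfsg.Agent.Lib Cfsg.Agent.Lib.Helper6.Zas Cfsg.Agent.Lib.Helper15
open scoped ComplexConjugate

variable {G Ω : Type*} [Group G] [MulAction G Ω] {a b c : Ω} {K : Subgroup G} {t u : G}

namespace S3Data

section

variable (s : S3Data G Ω a b c K t u)
  (f : stabilizer G a →* ↥(stabilizer G a ⊓ stabilizer G b))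
  (hf : ∀ (k : G) (_ : k ∈ K) (h : ↥(stabilizer G a ⊓ stabilizer G b))
        (hm : k * h ∈ stabilizer G a), f ⟨k * h, hm⟩ = h)
  (ψ : swapN G a b → ℂ)

include s hf

theorem sum_R [Finite G] [Fintype ↥(stabilizer G a ⊓ stabilizer G b)]
    (hψ : IsIrrCharacter (swapN G a b) ψ) (hu2 : ψ ⟨u, s.uN⟩ ^ 2 = 1) {m : ℕ}
    (hm : Nat.card ↥(stabilizer G a ⊓ stabilizer G b) = m) :
    ∑ h : ↥(stabilizer G a ⊓ stabilizer G b),
      extendByZero (stabilizer G a) (phi f ψ) (u * (h * u * (h : G)⁻¹)) = m / ψ 1 := by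
  have := Fintype.ofFinite (swapN G a b)
  have h1 := Helper81.IsIrrCharacter.sum_mul_conj hψ ⟨u, s.uN⟩ ⟨u, s.uN⟩
  rw [s.sum_N, ← Nat.card_eq_fintype_card, s.card_N, hm] at h1
  have e1 : ∀ h : ↥(stabilizer G a ⊓ stabilizer G b),
      extendByZero (stabilizer G a) (phi f ψ) (u * (h * u * (h : G)⁻¹))
        = ψ (⟨u, s.uN⟩ * (Subgroup.inclusion H_le_N h * ⟨u, s.uN⟩ * (Subgroup.inclusion H_le_N h)⁻¹)) := by
    intro h
    have ha : (h : G) • a = a := h.2.1
    have hb : (h : G) • b = b := h.2.2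
    have ha' : (h : G)⁻¹ • a = a := by rw [inv_smul_eq_iff, ha]
    have hb' : (h : G)⁻¹ • b = b := by rw [inv_smul_eq_iff, hb]
    have hg : u * (h * u * (h : G)⁻¹) ∈ stabilizer G a ⊓ stabilizer G b := by
      constructor
      · show (u * (h * u * (h : G)⁻¹)) • a = a
        rw [mul_smul, mul_smul, mul_smul, ha', s.ua, hb, s.ub]
      · show (u * (h * u * (h : G)⁻¹)) • b = b
        rw [mul_smul, mul_smul, mul_smul, hb', s.ub, ha, s.ua]
    rw [ext_H f hf ψ _ hg]
    rfl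
  have e2 : ∀ h : ↥(stabilizer G a ⊓ stabilizer G b),
      ψ (⟨u, s.uN⟩ * (Subgroup.inclusion H_le_N h * ⟨u, s.uN⟩ * ⟨u, s.uN⟩ *
        (Subgroup.inclusion H_le_N h * ⟨u, s.uN⟩)⁻¹))
        = ψ (⟨u, s.uN⟩ * (Subgroup.inclusion H_le_N h * ⟨u, s.uN⟩ * (Subgroup.inclusion H_le_N h)⁻¹)) := by
    intro h
    congr 2
    group
  simp_rw [e2, ← e1] at h1
  have h2 : ψ ⟨u, s.uN⟩ * ψ ⟨u, s.uN⟩ = 1 := by rw [← sq]; exact hu2
  push_cast at h1
  rw [mul_assoc, h2] at h1
  linear_combination (1 / 2 : ℂ) * h1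

variable [Fintype G] [DecidableEq G] [Fintype Ω] [DecidableEq Ω]

theorem sum_W (hψ : IsIrrCharacter (swapN G a b) ψ) (hu2 : ψ ⟨u, s.uN⟩ ^ 2 = 1) {m : ℕ}
    (hm : Nat.card ↥(stabilizer G a ⊓ stabilizer G b) = m) (hΩ : Fintype.card Ω = m + 2) :
    ∑ y : G, extendByZero (stabilizer G a) (phi f ψ) (u * (y * t * y⁻¹)) = (m : ℂ) ^ 2 / ψ 1 := by
  have := Fintype.ofFinite ↥(stabilizer G a ⊓ stabilizer G b)
  have hcf := irr_cf hψ
  have hm0 : (m : ℂ) ≠ 0 := by
    rw [← hm]; exact card_ne_zero _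
  set W := ∑ y : G, extendByZero (stabilizer G a) (phi f ψ) (u * (y * t * y⁻¹)) with hW
  have i1 : ∀ h : ↥(stabilizer G a ⊓ stabilizer G b),
      ∑ y : G, extendByZero (stabilizer G a) (phi f ψ) ((h * u * (h : G)⁻¹) * (y * t * y⁻¹)) = W := by
    intro h
    have ha : (h : G) • a = a := h.2.1
    have ha' : (h : G)⁻¹ • a = a := by rw [inv_smul_eq_iff, ha]
    apply Fintype.sum_equiv (Equiv.mulLeft (h : G)⁻¹)
    intro y
    rw [← ext_conj f ψ hcf (h : G)⁻¹ _ ha']
    congr 1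
    simp only [Equiv.coe_mulLeft]
    group
  have i3 : ∀ y : G, ∑ h : ↥(stabilizer G a ⊓ stabilizer G b),
      extendByZero (stabilizer G a) (phi f ψ) ((h * u * (h : G)⁻¹) * (y * t * y⁻¹))
        = if (y * t * y⁻¹) • a = b then (m : ℂ) / ψ 1 else 0 := by
    intro y
    split_ifs with hy
    · obtain ⟨h₀, ha0, hb0, he⟩ := s.conj_u'' y hy
      rw [he, ← s.sum_R f hf ψ hψ hu2 hm]
      apply Fintype.sum_equiv ((Equiv.inv _).trans
        (Equiv.mulRight (⟨h₀, ha0, hb0⟩ : ↥(stabilizer G a ⊓ stabilizer G b))))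
      intro h
      have ha : (h : G) • a = a := h.2.1
      have ha' : (h : G)⁻¹ • a = a := by rw [inv_smul_eq_iff, ha]
      rw [← ext_conj f ψ hcf (h : G)⁻¹ _ ha']
      congr 1
      simp only [Equiv.trans_apply, Equiv.inv_apply, Equiv.coe_mulRight, Subgroup.coe_mul,
        Subgroup.coe_inv]
      group
    · apply Finset.sum_eq_zero
      intro h _
      apply extendByZero_not_mem
      intro hmem
      apply hy
      have ha : (h : G) • a = a := h.2.1
      have hb : (h : G) • b = b := h.2.2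
      have ha' : (h : G)⁻¹ • a = a := by rw [inv_smul_eq_iff, ha]
      have h1 : ((h * u * (h : G)⁻¹) * (y * t * y⁻¹)) • a = a := hmem
      rw [mul_smul, ← eq_inv_smul_iff] at h1
      rw [h1]
      have : (h * u * (h : G)⁻¹)⁻¹ = h * u⁻¹ * (h : G)⁻¹ := by group
      rw [this, s.u_inv, mul_smul, mul_smul, ha', s.ua, hb]
  have h4 : (m : ℂ) * W = (m : ℂ) * m * (m / ψ 1) := by
    calc (m : ℂ) * W = ∑ h : ↥(stabilizer G a ⊓ stabilizer G b),
          ∑ y : G, extendByZero (stabilizer G a) (phi f ψ) ((h * u * (h : G)⁻¹) * (y * t * y⁻¹)) := by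
          simp_rw [i1]
          rw [Finset.sum_const, Finset.card_univ, nsmul_eq_mul, ← Nat.card_eq_fintype_card, hm]
      _ = ∑ y : G, if (y * t * y⁻¹) • a = b then (m : ℂ) / ψ 1 else 0 := by
          rw [Finset.sum_comm]
          simp_rw [i3]
      _ = (m : ℂ) * m * (m / ψ 1) := by
          rw [Finset.sum_ite, Finset.sum_const, Finset.sum_const_zero, add_zero, nsmul_eq_mul,
            s.card_conj_swap hm hΩ]
          push_cast
          ring
  have h5 := mul_left_cancel₀ hm0 (h4.trans (mul_assoc _ _ _))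
  rw [h5]
  ring

theorem sum_S0 (hψ : IsIrrCharacter (swapN G a b) ψ) (hu2 : ψ ⟨u, s.uN⟩ ^ 2 = 1) {m : ℕ}
    (hm : Nat.card ↥(stabilizer G a ⊓ stabilizer G b) = m) (hΩ : Fintype.card Ω = m + 2) :
    ∑ x : G, ∑ y : G, extendByZero (stabilizer G a) (phi f ψ) (x * t * x⁻¹ * (y * t * y⁻¹))
      = (2 * (((m : ℂ) + 1) * m)) ^ 2 * ψ 1 + (((m : ℂ) + 1) * m * m) * ((m : ℂ) ^ 2 / ψ 1) := by
  have hcf := irr_cf hψ
  have inner : ∀ x : G, ∑ y : G,
      extendByZero (stabilizer G a) (phi f ψ) (x * t * x⁻¹ * (y * t * y⁻¹))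
        = if (x * t * x⁻¹) • a = a then (2 * (((m : ℂ) + 1) * m)) * ψ 1 else (m : ℂ) ^ 2 / ψ 1 := by
    intro x
    split_ifs with hx
    · have h1 : ∀ y : G, extendByZero (stabilizer G a) (phi f ψ) (x * t * x⁻¹ * (y * t * y⁻¹))
          = if (y * t * y⁻¹) • a = a then ψ 1 else 0 := by
        intro y
        split_ifs with hy
        · exact s.ext_fix_fix f hf ψ x y hx hy
        · apply extendByZero_not_mem
          intro hmem
          apply hy
          have h2 : (x * t * x⁻¹ * (y * t * y⁻¹)) • a = a := hmem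
          rw [mul_smul, ← eq_inv_smul_iff] at h2
          rw [h2, inv_smul_eq_iff, hx]
      simp_rw [h1]
      rw [Finset.sum_ite, Finset.sum_const, Finset.sum_const_zero, add_zero, nsmul_eq_mul,
        s.card_conj_fix hm hΩ]
      push_cast
      ring
    · obtain ⟨β, hβ, he⟩ := s.conj_u' x hx
      rw [← s.sum_W f hf ψ hψ hu2 hm hΩ]
      apply Fintype.sum_equiv (Equiv.mulLeft β)
      intro y
      rw [← ext_conj f ψ hcf β _ hβ, ← he]
      congr 1
      simp only [Equiv.coe_mulLeft]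
      group
  simp_rw [inner]
  have hG := s.z.base.card_group s.z.hab hm (h := m + 1) hΩ
  have hc := Finset.card_filter_add_card_filter_not (s := (Finset.univ : Finset G))
    (fun x : G => (x * t * x⁻¹) • a = a)
  rw [s.card_conj_fix hm hΩ, Finset.card_univ, hG] at hc
  have hc' : ((Finset.univ.filter (fun x : G => ¬ (x * t * x⁻¹) • a = a)).card : ℂ)
      = ((m : ℂ) + 1) * m * m := by
    have : (2 * ((m + 1) * m) + (Finset.univ.filter (fun x : G => ¬ (x * t * x⁻¹) • a = a)).card : ℂ)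
        = (((m + 1 + 1) * (m + 1) * m : ℕ) : ℂ) := by exact_mod_cast hc
    push_cast at this
    linear_combination this
  rw [Finset.sum_ite, Finset.sum_const, Finset.sum_const, nsmul_eq_mul, nsmul_eq_mul,
    s.card_conj_fix hm hΩ, hc']
  push_cast
  ring

end

end S3Data

end Cfsg.Agent.Lib.Helper19
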