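import Mathlib
import Cfsg.Agent.Lib.Helper19.S3Key2

set_option autoImplicit false

/-! Sharply 3-transitive groups of even degree have a non-trivial linear character. -/

namespace Cfsg.Agent.Lib.Helper19

open MulAction Cfsg Cfsg.Agent.Lib Cfsg.Agent.Lib.Helper6.Zas Cfsg.Agent.Lib.Helper15
open scoped ComplexConjugate

theorem caseB_alg (M ε E₁ E₂ : ℂ) (hM : M ≠ 0) (hM1 : M + 1 ≠ 0) (hM2 : M + 2 ≠ 0) (hε : ε ≠ 0)
    (hd1 : ε + M * E₁ ≠ 0) (hd2 : ε + M * E₂ ≠ 0) (hE : E₁ + E₂ = ε)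
    (h : ((M + 2) * (M + 1) * M) ^ 2 * ε ^ 2 / (ε + M * E₁)
        + ((M + 2) * (M + 1) * M) ^ 2 * ε ^ 2 / (ε + M * E₂)
      = ((M + 1) * M)⁻¹ * ((M + 2) * (M + 1) * M) *
        ((2 * ((M + 1) * M)) ^ 2 * ε + ((M + 1) * M * M) * (M ^ 2 / ε))) :
    (M + 1) * ε ^ 4 = E₁ * E₂ * (4 * (M + 1) * ε ^ 2 + M ^ 2) + (M + 1) * ε ^ 2 := by
  have hE2 : E₂ = ε - E₁ := by linear_combination hE
  subst hE2
  field_simp at h
  apply mul_left_cancel₀ (pow_ne_zero 2 hM)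
  linear_combination h

theorem caseA_alg (M ε z : ℂ) (hM : M ≠ 0) (hM1 : M + 1 ≠ 0) (hM2 : M + 2 ≠ 0) (hε : ε ≠ 0)
    (h : ((M + 2) * (M + 1) * M) ^ 2 * z ^ 2 / ((M + 2) * ε)
      = ((M + 1) * M)⁻¹ * ((M + 2) * (M + 1) * M) *
        ((2 * ((M + 1) * M)) ^ 2 * ε + ((M + 1) * M * M) * (M ^ 2 / ε))) :
    (M + 1) * z ^ 2 = 4 * (M + 1) * ε ^ 2 + M ^ 2 := by
  field_simp at h
  linear_combination h

theorem dioph (m e E₁ E₂ : ℕ) (he : 0 < e) (hem : e ^ 2 ≤ m)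
    (h : (m + 1) * e ^ 4 = E₁ * E₂ * (4 * (m + 1) * e ^ 2 + m ^ 2) + (m + 1) * e ^ 2) :
    e = 1 ∧ (E₁ = 0 ∨ E₂ = 0) := by
  have hcop : Nat.Coprime (4 * (m + 1) * e ^ 2 + m ^ 2) (m + 1) := by
    have h1 : 4 * (m + 1) * e ^ 2 + m ^ 2 = m ^ 2 + (m + 1) * (4 * e ^ 2) := by ring
    rw [h1, Nat.coprime_add_mul_left_left]
    apply Nat.Coprime.pow_left
    simp
  have hle : e ^ 2 ≤ e ^ 4 := Nat.pow_le_pow_right he (by norm_num)
  have hdvd : (4 * (m + 1) * e ^ 2 + m ^ 2) ∣ (m + 1) * (e ^ 4 - e ^ 2) := by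
    refine ⟨E₁ * E₂, ?_⟩
    rw [Nat.mul_sub, h]
    rw [Nat.add_sub_cancel]
    ring
  have hdvd' := hcop.dvd_of_dvd_mul_left hdvd
  have he1 : e = 1 := by
    by_contra hne
    have h2 : 2 ≤ e := by omega
    have h3 : e ^ 2 < e ^ 4 := Nat.pow_lt_pow_right (by omega) (by norm_num)
    have h4 := Nat.le_of_dvd (by omega) hdvd'
    have h5 : e ^ 4 ≤ m ^ 2 := by
      calc e ^ 4 = (e ^ 2) ^ 2 := by ring
        _ ≤ m ^ 2 := Nat.pow_le_pow_left hem 2
    have h6 : 0 < 4 * (m + 1) * e ^ 2 := by positivity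
    omega
  refine ⟨he1, ?_⟩
  subst he1
  have h7 : E₁ * E₂ * (4 * (m + 1) * 1 ^ 2 + m ^ 2) = 0 := by omega
  rcases mul_eq_zero.1 h7 with h | h
  · exact mul_eq_zero.1 h
  · exfalso
    have : 0 < 4 * (m + 1) * 1 ^ 2 + m ^ 2 := by positivity
    omega

theorem caseA_false (m e : ℕ) (z : ℤ) (hm : 0 < m)
    (h : ((m : ℤ) + 1) * z ^ 2 = 4 * ((m : ℤ) + 1) * (e : ℤ) ^ 2 + (m : ℤ) ^ 2) : False := by
  have h1 : ((m : ℤ) + 1) * (z ^ 2 - 4 * (e : ℤ) ^ 2 - m + 1) = 1 := by linear_combination h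
  rcases Int.eq_one_or_neg_one_of_mul_eq_one h1 with h2 | h2 <;> omega

theorem irr_degree_sq_le {X : Type*} [Group X] [Fintype X] {χ : X → ℂ} (hχ : IsIrrCharacter X χ)
    {e : ℕ} (he : χ 1 = e) : e ^ 2 ≤ Nat.card X := by
  have h := irr_inner_self hχ
  unfold classInner at h
  have hn0 : (Nat.card X : ℂ) ≠ 0 := card_ne_zero _
  have h1 : ∑ x : X, χ x * conj (χ x) = Nat.card X := by
    field_simp at h
    exact h
  have h2 : ∑ x : X, (Complex.normSq (χ x) : ℂ) = Nat.card X := by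
    simp_rw [← Complex.mul_conj]; exact h1
  have h3 : ∑ x : X, Complex.normSq (χ x) = (Nat.card X : ℝ) := by exact_mod_cast h2
  have h4 : Complex.normSq (χ 1) ≤ ∑ x : X, Complex.normSq (χ x) :=
    Finset.single_le_sum (f := fun x => Complex.normSq (χ x))
      (fun i _ => Complex.normSq_nonneg _) (Finset.mem_univ 1)
  rw [he, Complex.normSq_natCast, h3] at h4
  have h5 : ((e ^ 2 : ℕ) : ℝ) ≤ (Nat.card X : ℝ) := by
    push_cast
    nlinarith
  exact_mod_cast h5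

variable {G Ω : Type*} [Group G] [MulAction G Ω] {a b c : Ω} {K : Subgroup G} {t u : G}

namespace S3Data

theorem card_H (s : S3Data G Ω a b c K t u) [Finite G] [Fintype Ω] :
    Fintype.card Ω = Nat.card ↥(stabilizer G a ⊓ stabilizer G b) + 2 := by
  classical
  have hbij : Function.Bijective (fun h : ↥(stabilizer G a ⊓ stabilizer G b) =>
      (⟨(h : G) • c, by
        constructor
        · intro h0
          have : (h : G) • c = (h : G) • a := by rw [h0]; exact (mem_stabilizer_iff.mp h.2.1).symm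
          exact s.hca (MulAction.injective _ this)
        · intro h0
          have : (h : G) • c = (h : G) • b := by rw [h0]; exact (mem_stabilizer_iff.mp h.2.2).symm
          exact s.hcb (MulAction.injective _ this)⟩ : {d : Ω // d ≠ a ∧ d ≠ b})) := by
    constructor
    · intro h h' he
      have h1 : (h : G) • c = (h' : G) • c := congrArg Subtype.val he
      have h2 : (h' : G)⁻¹ * h = 1 := by
        apply s.z.base.three _ a b c s.z.hab s.hcb.symm s.hca.symm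
        · rw [mul_smul, mem_stabilizer_iff.mp h.2.1, inv_smul_eq_iff, mem_stabilizer_iff.mp h'.2.1]
        · rw [mul_smul, mem_stabilizer_iff.mp h.2.2, inv_smul_eq_iff, mem_stabilizer_iff.mp h'.2.2]
        · rw [mul_smul, h1, inv_smul_smul]
      exact Subtype.ext (inv_mul_eq_one.mp h2).symm
    · rintro ⟨d, hda, hdb⟩
      obtain ⟨h, ha, hb, hc⟩ := s.Htrans d hda hdb
      exact ⟨⟨h, ha, hb⟩, Subtype.ext hc⟩
  rw [Nat.card_congr (Equiv.ofBijective _ hbij), Nat.card_eq_fintype_card, Fintype.card_subtype]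
  have h1 : (Finset.univ.filter (fun d : Ω => d ≠ a ∧ d ≠ b)) = (Finset.univ.erase a).erase b := by
    ext d
    simp only [Finset.mem_filter, Finset.mem_univ, true_and, Finset.mem_erase, and_true]
    tauto
  rw [h1, Finset.card_erase_of_mem (by simp [s.z.hab.symm]),
    Finset.card_erase_of_mem (Finset.mem_univ _), Finset.card_univ]
  have h2 : 2 ≤ Fintype.card Ω := by
    rw [← Finset.card_pair s.z.hab]
    exact Finset.card_le_univ _
  omega

theorem psi_t_sq (s : S3Data G Ω a b c K t u) [Finite G] {ψ : swapN G a b → ℂ}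
    (hψ : IsIrrCharacter (swapN G a b) ψ) : ψ ⟨t, H_le_N s.tH⟩ ^ 2 = ψ 1 ^ 2 := by
  have := Fintype.ofFinite (swapN G a b)
  have h1 := Helper81.IsIrrCharacter.sum_mul_conj hψ ⟨t, H_le_N s.tH⟩ ⟨t, H_le_N s.tH⟩
  have h2 : ∀ y : swapN G a b, ψ (⟨t, H_le_N s.tH⟩ * (y * ⟨t, H_le_N s.tH⟩ * y⁻¹)) = ψ 1 := by
    intro y
    congr 1
    apply Subtype.ext
    show t * ((y : G) * t * (y : G)⁻¹) = 1
    rw [s.t_central y.2, s.t2]
  simp_rw [h2] at h1
  rw [Finset.sum_const, Finset.card_univ, nsmul_eq_mul] at h1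
  have h3 : (Fintype.card (swapN G a b) : ℂ) ≠ 0 := by
    exact_mod_cast Fintype.card_ne_zero
  have h4 := irr_one_ne_zero hψ
  field_simp at h1
  linear_combination -h1

end S3Data

end Cfsg.Agent.Lib.Helper19
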