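import Mathlib
import Cfsg.Agent.Lib.Helper19.S3Main

set_option autoImplicit false

/-! Sharply 3-transitive groups of even degree have a non-trivial linear character. -/

namespace Cfsg.Agent.Lib.Helper19

open MulAction Cfsg Cfsg.Agent.Lib Cfsg.Agent.Lib.Helper6.Zas Cfsg.Agent.Lib.Helper15
open scoped ComplexConjugate

variable {G Ω : Type*} [Group G] [MulAction G Ω] {a b c : Ω} {K : Subgroup G} {t u : G}

namespace S3Data

theorem exists_linear (s : S3Data G Ω a b c K t u) [Finite G] [Finite Ω]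
    (heven : Even (Nat.card Ω)) :
    ∃ lam : G →* ℂˣ, ∃ h ∈ stabilizer G a ⊓ stabilizer G b, lam h ≠ 1 := by
  classical
  have := Fintype.ofFinite G
  have := Fintype.ofFinite Ω
  have := Fintype.ofFinite (stabilizer G a)
  have := Fintype.ofFinite (K.subgroupOf (stabilizer G a))
  have := Fintype.ofFinite ↥(stabilizer G a ⊓ stabilizer G b)
  obtain ⟨m, hm⟩ : ∃ m, Nat.card ↥(stabilizer G a ⊓ stabilizer G b) = m := ⟨_, rfl⟩
  have hΩ : Fintype.card Ω = m + 2 := by rw [s.card_H, hm]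
  have hm0 : 0 < m := by rw [← hm]; exact Nat.card_pos
  have hK : Nat.card K = m + 1 := by
    have := s.z.card_K
    rw [Nat.card_eq_fintype_card, hΩ] at this
    omega
  have hodd : Odd (Nat.card K) := by
    rw [hK]
    rw [Nat.card_eq_fintype_card, hΩ] at heven
    obtain ⟨r, hr⟩ := heven
    exact ⟨r - 1, by omega⟩
  have hG := s.z.base.card_group s.z.hab hm (h := m + 1) hΩ
  have hB : Nat.card (stabilizer G a) = (m + 1) * m := by
    rw [Nat.card_eq_fintype_card, Fintype.card_subtype]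
    exact s.z.base.card_stab1 s.z.hab hm (h := m + 1) hΩ a
  have hidx : (stabilizer G a).index = m + 2 := by
    have h1 := (stabilizer G a).card_mul_index
    rw [hB, Nat.card_eq_fintype_card, hG] at h1
    have hpos : 0 < (m + 1) * m := by positivity
    apply Nat.eq_of_mul_eq_mul_left hpos
    rw [h1]; ring
  obtain ⟨f, hf⟩ := s.z.exists_proj
  obtain ⟨ψ, hψ, hu2, hψH, h₁, hne⟩ := s.exists_psi
  obtain ⟨e, he⟩ := char_one_nat (irr_char hψ)
  have he0 : 0 < e := by
    rcases Nat.eq_zero_or_pos e with h | h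
    · exfalso
      apply irr_one_ne_zero hψ
      rw [he, h]; simp
    · exact h
  have hφ : IsIrrCharacter (stabilizer G a) (phi f ψ) :=
    Helper74.IsIrrCharacter.comp_surjective hψH f (f_surj f hf)
  have hφK : ∀ k : stabilizer G a, (k : G) ∈ K → phi f ψ k = e := fun k hk => by
    rw [phi_K f hf ψ k hk, he]
  have hem : e ^ 2 ≤ m := by
    rw [← hm]
    exact irr_degree_sq_le hψH he
  have hφt : phi f ψ ⟨t, s.ta⟩ ^ 2 = (e : ℂ) ^ 2 := by
    unfold phi
    rw [f_H f hf t s.tH, ← he]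
    exact s.psi_t_sq hψ
  have hMne : (m : ℂ) ≠ 0 := by exact_mod_cast hm0.ne'
  have hM1 : (m : ℂ) + 1 ≠ 0 := by exact_mod_cast (Nat.succ_ne_zero m)
  have hM2 : (m : ℂ) + 2 ≠ 0 := by exact_mod_cast (Nat.succ_ne_zero (m + 1))
  have hεne : (e : ℂ) ≠ 0 := by exact_mod_cast he0.ne'
  have h12 : (m : ℂ) + 1 + 1 = m + 2 := by ring
  have finish : ∀ θ : G → ℂ, IsIrrCharacter G θ → θ 1 = 1 → e = 1 →
      classInner (fun x : stabilizer G a => θ x) (phi f ψ) ≠ 0 →
      ∃ lam : G →* ℂˣ, ∃ h ∈ stabilizer G a ⊓ stabilizer G b, lam h ≠ 1 := by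
    intro θ hθ hθ1 he1 hc
    have heq := Helper81.eq_of_constituent_of_degree (char_restrict (irr_char hθ) (stabilizer G a))
      hφ hc (by
        show θ 1 = phi f ψ 1
        rw [hθ1, hφK 1 K.one_mem, he1]; simp)
    obtain ⟨lam, hlam⟩ := exists_toFn (irr_char hθ) hθ1
    refine ⟨lam, h₁, h₁.2, ?_⟩
    intro hl
    apply hne
    have h2 : θ h₁ = phi f ψ ⟨h₁, h₁.2.1⟩ := congrFun heq ⟨h₁, h₁.2.1⟩
    unfold phi at h2
    rw [f_H f hf h₁ h₁.2, hlam, toFn_apply, hl] at h2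
    exact h2.symm
  have key := sum_ind_conj_conj (stabilizer G a) (phi f ψ) t
  rw [s.sum_S0 f hf ψ hψ hu2 hm hΩ, hB, hG, he] at key
  rcases s.decomp hK hidx hodd hφ hφK he0 with
    hirr | ⟨θ₁, θ₂, E₁, E₂, i1, i2, hsum, t1, t2, d1, d2, c1, c2⟩
  · exfalso
    rw [sum_irr_conj_conj hirr t, hG, indFun_one, hidx, hφK 1 K.one_mem] at key
    obtain ⟨z, hz⟩ := char_invol_int' (irr_char hirr) s.t2
    rw [hz] at key
    push_cast at key
    rw [h12] at key
    have h3 := caseA_alg m e z hMne hM1 hM2 hεne key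
    exact caseA_false m e z hm0 (by exact_mod_cast h3)
  · have hs : ∑ x : G, ∑ y : G, indFun (stabilizer G a) (phi f ψ) (x * t * x⁻¹ * (y * t * y⁻¹))
        = ∑ x : G, ∑ y : G, θ₁ (x * t * x⁻¹ * (y * t * y⁻¹))
          + ∑ x : G, ∑ y : G, θ₂ (x * t * x⁻¹ * (y * t * y⁻¹)) := by
      rw [hsum]
      simp [Finset.sum_add_distrib]
    rw [hs, sum_irr_conj_conj i1, sum_irr_conj_conj i2, t1, t2, hφt, d1, d2, hG] at key
    have hdeg : indFun (stabilizer G a) (phi f ψ) 1 = θ₁ 1 + θ₂ 1 := by rw [hsum]; rfl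
    rw [indFun_one, hidx, hφK 1 K.one_mem, d1, d2] at hdeg
    have hE : E₁ + E₂ = e := by
      have h4 : (m + 2) * e = (e + m * E₁) + (e + m * E₂) := by exact_mod_cast hdeg
      have h5 : m * (E₁ + E₂) = m * e := by linarith
      exact Nat.eq_of_mul_eq_mul_left hm0 h5
    have hd1 : (e : ℂ) + m * E₁ ≠ 0 := by rw [← d1]; exact irr_one_ne_zero i1
    have hd2 : (e : ℂ) + m * E₂ ≠ 0 := by rw [← d2]; exact irr_one_ne_zero i2
    push_cast at key
    rw [h12] at key
    have h3 := caseB_alg m e E₁ E₂ hMne hM1 hM2 hεne hd1 hd2 (by exact_mod_cast hE) key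
    obtain ⟨e1, hE0⟩ := dioph m e E₁ E₂ he0 hem (by exact_mod_cast h3)
    rcases hE0 with h0 | h0
    · exact finish θ₁ i1 (by rw [d1, h0, e1]; simp) e1 c1
    · exact finish θ₂ i2 (by rw [d2, h0, e1]; simp) e1 c2

end S3Data

end Cfsg.Agent.Lib.Helper19
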