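import Mathlib
import Cfsg.Agent.Lib.Helper19.S3Final

set_option autoImplicit false

/-! Building the data `S3Data`, and consequences of the linear character. -/

namespace Cfsg.Agent.Lib.Helper19

open MulAction Cfsg Cfsg.Agent.Lib Cfsg.Agent.Lib.Helper6.Zas

variable {G Ω : Type*} [Group G] [MulAction G Ω] {a b c : Ω} {K : Subgroup G} {t u : G}

/-- the orbit map of the two point stabiliser -/
def orbMap (hb : Base G Ω) (a b c : Ω) (hca : c ≠ a) (hcb : c ≠ b) :
    ↥(stabilizer G a ⊓ stabilizer G b) → {d : Ω // d ≠ a ∧ d ≠ b} := fun h =>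
  ⟨(h : G) • c, by
    constructor
    · intro h0
      have : (h : G) • c = (h : G) • a := by rw [h0]; exact (mem_stabilizer_iff.mp h.2.1).symm
      exact hca (MulAction.injective _ this)
    · intro h0
      have : (h : G) • c = (h : G) • b := by rw [h0]; exact (mem_stabilizer_iff.mp h.2.2).symm
      exact hcb (MulAction.injective _ this)⟩

theorem orbMap_injective (hb : Base G Ω) (hab : a ≠ b) (hca : c ≠ a) (hcb : c ≠ b) :
    Function.Injective (orbMap hb a b c hca hcb) := by
  intro h h' he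
  have h1 : (h : G) • c = (h' : G) • c := congrArg Subtype.val he
  have h2 : (h' : G)⁻¹ * h = 1 := by
    apply hb.three _ a b c hab hcb.symm hca.symm
    · rw [mul_smul, mem_stabilizer_iff.mp h.2.1, inv_smul_eq_iff, mem_stabilizer_iff.mp h'.2.1]
    · rw [mul_smul, mem_stabilizer_iff.mp h.2.2, inv_smul_eq_iff, mem_stabilizer_iff.mp h'.2.2]
    · rw [mul_smul, h1, inv_smul_smul]
  exact Subtype.ext (inv_mul_eq_one.mp h2).symm

theorem card_compl_pair [Fintype Ω] [DecidableEq Ω] (hab : a ≠ b) :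
    Fintype.card {d : Ω // d ≠ a ∧ d ≠ b} + 2 = Fintype.card Ω := by
  rw [Fintype.card_subtype]
  have h1 : (Finset.univ.filter (fun d : Ω => d ≠ a ∧ d ≠ b)) = (Finset.univ.erase a).erase b := by
    ext d
    simp only [Finset.mem_filter, Finset.mem_univ, true_and, Finset.mem_erase, and_true]
    tauto
  rw [h1, Finset.card_erase_of_mem (by simp [hab.symm]),
    Finset.card_erase_of_mem (Finset.mem_univ _), Finset.card_univ]
  have h2 : 2 ≤ Fintype.card Ω := by
    rw [← Finset.card_pair hab]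
    exact Finset.card_le_univ _
  omega

theorem card_H_of_trans (hb : Base G Ω) [Finite G] [Fintype Ω] (hab : a ≠ b) (hca : c ≠ a)
    (hcb : c ≠ b) (Htrans : ∀ d : Ω, d ≠ a → d ≠ b → ∃ h : G, h • a = a ∧ h • b = b ∧ h • c = d) :
    Fintype.card Ω = Nat.card ↥(stabilizer G a ⊓ stabilizer G b) + 2 := by
  classical
  have hbij : Function.Bijective (orbMap hb a b c hca hcb) := by
    refine ⟨orbMap_injective hb hab hca hcb, ?_⟩
    rintro ⟨d, hda, hdb⟩
    obtain ⟨h, ha, hb', hc⟩ := Htrans d hda hdb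
    exact ⟨⟨h, ha, hb'⟩, Subtype.ext hc⟩
  rw [Nat.card_congr (Equiv.ofBijective _ hbij), Nat.card_eq_fintype_card, card_compl_pair hab]

theorem Htrans_of_card (hb : Base G Ω) [Finite G] [Fintype Ω] (hab : a ≠ b) (hca : c ≠ a)
    (hcb : c ≠ b) (hcard : Fintype.card Ω = Nat.card ↥(stabilizer G a ⊓ stabilizer G b) + 2) :
    ∀ d : Ω, d ≠ a → d ≠ b → ∃ h : G, h • a = a ∧ h • b = b ∧ h • c = d := by
  classical
  have := Fintype.ofFinite ↥(stabilizer G a ⊓ stabilizer G b)
  have hbij : Function.Bijective (orbMap hb a b c hca hcb) := by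
    rw [Fintype.bijective_iff_injective_and_card]
    refine ⟨orbMap_injective hb hab hca hcb, ?_⟩
    have := card_compl_pair (Ω := Ω) hab
    rw [Nat.card_eq_fintype_card] at hcard
    omega
  intro d hda hdb
  obtain ⟨h, hh⟩ := hbij.2 ⟨d, hda, hdb⟩
  exact ⟨h, h.2.1, h.2.2, congrArg Subtype.val hh⟩

theorem exists_invol_of_even {X : Type*} [Group X] (H : Subgroup X) [Finite H]
    (heven : Even (Nat.card H)) : ∃ t ∈ H, t ≠ 1 ∧ t * t = 1 := by
  have : Fact (Nat.Prime 2) := ⟨Nat.prime_two⟩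
  obtain ⟨j, hj⟩ := exists_prime_orderOf_dvd_card' (G := H) 2 heven.two_dvd
  refine ⟨j, j.2, ?_, ?_⟩
  · intro h
    have : j = 1 := Subtype.ext h
    rw [this, orderOf_one] at hj
    omega
  · have : j ^ 2 = 1 := by rw [← hj]; exact pow_orderOf_eq_one j
    have h2 := congrArg Subtype.val this
    simpa [sq] using h2

/-- The kernel of a linear character that is non-trivial on `H` meets `H` in a subgroup of
index two. -/
theorem S3Data.relIndex_ker (s : S3Data G Ω a b c K t u) [Finite G] (lam : G →* ℂˣ) {h₁ : G}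
    (hh₁ : h₁ ∈ stabilizer G a ⊓ stabilizer G b) (hne : lam h₁ ≠ 1) :
    ((stabilizer G a ⊓ stabilizer G b) ⊓ lam.ker).relIndex (stabilizer G a ⊓ stabilizer G b) = 2 := by
  classical
  set H := stabilizer G a ⊓ stabilizer G b with hH
  set N₀ := H ⊓ lam.ker with hN₀
  have := Fintype.ofFinite H
  have := Fintype.ofFinite N₀
  have memH : ∀ h : H, (h : G)⁻¹ * (u * h * u⁻¹) ∈ N₀ := by
    intro h
    have ha : (h : G) • a = a := h.2.1
    have hb : (h : G) • b = b := h.2.2
    refine ⟨⟨?_, ?_⟩, ?_⟩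
    · show ((h : G)⁻¹ * (u * h * u⁻¹)) • a = a
      rw [s.u_inv, mul_smul, mul_smul, mul_smul, s.ua, hb, s.ub, inv_smul_eq_iff, ha]
    · show ((h : G)⁻¹ * (u * h * u⁻¹)) • b = b
      rw [s.u_inv, mul_smul, mul_smul, mul_smul, s.ub, ha, s.ua, inv_smul_eq_iff, hb]
    · show (h : G)⁻¹ * (u * h * u⁻¹) ∈ lam.ker
      rw [MonoidHom.mem_ker]
      simp only [map_mul, map_inv]
      rw [mul_comm (lam u), mul_assoc, mul_inv_cancel, mul_one, inv_mul_cancel]
  let F : H → N₀ := fun h => ⟨(h : G)⁻¹ * (u * h * u⁻¹), memH h⟩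
  have hfib : ∀ j ∈ (Finset.univ : Finset H).image F,
      ((Finset.univ : Finset H).filter (fun x => F x = j)).card ≤ 2 := by
    intro j hj
    obtain ⟨h, -, rfl⟩ := Finset.mem_image.1 hj
    have hsub : (Finset.univ : Finset H).filter (fun x => F x = F h)
        ⊆ {h, ⟨t, s.tH⟩ * h} := by
      intro x hx
      simp only [Finset.mem_filter, Finset.mem_univ, true_and] at hx
      have h1 : (x : G)⁻¹ * (u * x * u⁻¹) = (h : G)⁻¹ * (u * h * u⁻¹) := congrArg Subtype.val hx
      have h2 : ((x : G) * (h : G)⁻¹) * u * ((x : G) * (h : G)⁻¹)⁻¹ = u := by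
        have h3 : u * x * u⁻¹ = x * (h : G)⁻¹ * (u * h * u⁻¹) := by
          rw [mul_assoc (x : G), ← h1]; group
        have h4 : u * (x * (h : G)⁻¹) = x * (h : G)⁻¹ * u := by
          calc u * (x * (h : G)⁻¹) = (u * x * u⁻¹) * (u * (h : G)⁻¹) := by group
            _ = x * (h : G)⁻¹ * (u * h * u⁻¹) * (u * (h : G)⁻¹) := by rw [h3]
            _ = x * (h : G)⁻¹ * u := by group
        rw [← h4]; group
      have hxh : (x : G) * (h : G)⁻¹ ∈ H := H.mul_mem x.2 (H.inv_mem h.2)
      have hxa : ((x : G) * (h : G)⁻¹) • a = a := hxh.1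
      simp only [Finset.mem_insert, Finset.mem_singleton]
      rcases (s.cent_u (H_le_N hxh)).1 h2 with h5 | h5 | h5 | h5
      · left
        exact Subtype.ext (mul_inv_eq_one.mp h5)
      · right
        apply Subtype.ext
        show (x : G) = t * h
        rw [← h5]; group
      · exfalso
        rw [h5, s.ua] at hxa
        exact s.z.hab hxa.symm
      · exfalso
        rw [h5, mul_smul, s.ua, s.tb] at hxa
        exact s.z.hab hxa.symm
    exact (Finset.card_le_card hsub).trans Finset.card_le_two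
  have h1 := Finset.card_le_mul_card_image (f := F) (Finset.univ : Finset H) 2 hfib
  have h2 : ((Finset.univ : Finset H).image F).card ≤ Fintype.card N₀ := Finset.card_le_univ _
  rw [Finset.card_univ] at h1
  have h3 : Nat.card N₀ * N₀.relIndex H = Nat.card H := by
    have := Subgroup.relIndex_mul_relIndex ⊥ N₀ H bot_le inf_le_left
    rwa [Subgroup.relIndex_bot_left, Subgroup.relIndex_bot_left] at this
  rw [Nat.card_eq_fintype_card, Nat.card_eq_fintype_card] at h3
  have h4 : N₀.relIndex H ≠ 1 := by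
    rw [Ne, Subgroup.relIndex_eq_one]
    intro hle
    exact hne (MonoidHom.mem_ker.1 (hle hh₁).2)
  have h5 : 0 < Fintype.card N₀ := Fintype.card_pos
  have h6 : 0 < Fintype.card H := Fintype.card_pos
  have h7 : N₀.relIndex H ≠ 0 := by
    intro h0
    rw [h0, mul_zero] at h3
    omega
  have h8 : N₀.relIndex H ≤ 2 := by
    by_contra hlt
    push Not at hlt
    have : Fintype.card N₀ * 3 ≤ Fintype.card N₀ * N₀.relIndex H := Nat.mul_le_mul_left _ hlt
    omega
  omega

end Cfsg.Agent.Lib.Helper19
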