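import Mathlib

set_option autoImplicit false
set_option linter.style.haveILetI false

/-! Semilinear maps normalising the squares of a finite field of odd degree are linear. -/

namespace Cfsg.Agent.Lib.Helper19

theorem ringHom_eq_id_of_involutive {F : Type*} [Field F] [Fintype F] {p f : ℕ} (hp : p.Prime)
    (hcard : Fintype.card F = p ^ f) (hf : Odd f) (σ : F →+* F) (h2 : ∀ x, σ (σ x) = x) :
    ∀ x, σ x = x := by
  haveI : Fact p.Prime := ⟨hp⟩
  have hf0 : f ≠ 0 := by
    rintro rfl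
    simp at hf
  haveI : CharP F p := by
    obtain ⟨q, hq⟩ := CharP.exists F
    haveI := hq
    obtain ⟨n, hqp, hn⟩ := FiniteField.card F q
    rw [hcard] at hn
    have : p = q := by
      have h1 : p ∣ q ^ (n : ℕ) := by rw [← hn]; exact dvd_pow_self p hf0
      exact (Nat.prime_dvd_prime_iff_eq hp hqp).1 (hp.dvd_of_dvd_pow h1)
    rw [this]; exact hq
  letI : Algebra (ZMod p) F := ZMod.algebra F p
  let e : F ≃+* F := RingEquiv.ofRingHom σ σ (RingHom.ext h2) (RingHom.ext h2)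
  let e' : F ≃ₐ[ZMod p] F := AlgEquiv.ofRingEquiv (f := e) (fun r => by
    have : (σ.comp (algebraMap (ZMod p) F)) = algebraMap (ZMod p) F := Subsingleton.elim _ _
    exact DFunLike.congr_fun this r)
  have hsq : e' ^ 2 = 1 := by
    ext x
    rw [sq]
    exact h2 x
  have h3 : Nat.card (F ≃ₐ[ZMod p] F) = Module.finrank (ZMod p) F := IsGalois.card_aut_eq_finrank _ _
  have h4 : Module.finrank (ZMod p) F = f := by
    have := Module.card_eq_pow_finrank (K := ZMod p) (V := F)
    rw [hcard, ZMod.card] at this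
    exact (Nat.pow_right_injective hp.two_le this).symm
  have h5 : orderOf e' ∣ 2 := orderOf_dvd_of_pow_eq_one hsq
  have h6 : orderOf e' ∣ f := by rw [← h4, ← h3]; exact orderOf_dvd_natCard e'
  have h7 : orderOf e' = 1 := by
    have := Nat.dvd_gcd h5 h6
    have hg : Nat.gcd 2 f = 1 := Nat.coprime_two_left.2 hf
    rw [hg] at this
    exact Nat.dvd_one.1 this
  rw [orderOf_eq_one_iff] at h7
  intro x
  have := DFunLike.congr_fun h7 x
  exact this

theorem semilinear_scalar {G : Type*} [Group G] {F : Type*} [Field F] [Fintype F]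
    (hF : ringChar F ≠ 2) {p f : ℕ} (hp : p.Prime) (hcard : Fintype.card F = p ^ f) (hf : Odd f)
    (T D : Subgroup G) (τ : F → G) (hτT : ∀ a, τ a ∈ T) (hτsurj : ∀ t ∈ T, ∃ a, τ a = t)
    (hτinj : Function.Injective τ) (hτadd : ∀ a b, τ (a + b) = τ a * τ b)
    (hDsq : ∀ d ∈ D, ∃ k : F, k ≠ 0 ∧ IsSquare k ∧ ∀ a, d * τ a * d⁻¹ = τ (k * a))
    (hsqD : ∀ k : F, k ≠ 0 → IsSquare k → ∃ d ∈ D, ∀ a, d * τ a * d⁻¹ = τ (k * a))
    (h : G) (hT : ∀ t ∈ T, h * t * h⁻¹ ∈ T) (hD : ∀ d ∈ D, h * d * h⁻¹ ∈ D) (hh : h * h ∈ D) :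
    ∃ k : F, k ≠ 0 ∧ ∀ a, h * τ a * h⁻¹ = τ (k * a) := by
  have h20 : (2 : F) ≠ 0 := Ring.two_ne_zero hF
  choose L hL using fun a => hτsurj _ (hT _ (hτT a))
  have Ladd : ∀ a b, L (a + b) = L a + L b := by
    intro a b
    apply hτinj
    rw [hL, hτadd, hτadd, hL, hL]
    group
  have L0 : L 0 = 0 := by
    have := Ladd 0 0
    rw [add_zero] at this
    exact left_eq_add.mp this
  have Linj : ∀ a b, L a = L b → a = b := by
    intro a b hab
    apply hτinj
    have h1 : h * τ a * h⁻¹ = h * τ b * h⁻¹ := by rw [← hL, ← hL, hab]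
    exact mul_left_cancel (mul_right_cancel h1)
  have Lsub : ∀ a b, L (a - b) = L a - L b := by
    intro a b
    have := Ladd (a - b) b
    rw [sub_add_cancel] at this
    rw [this]; ring
  set k₁ := L 1 with hk₁
  have hk0 : k₁ ≠ 0 := by
    intro h0
    exact one_ne_zero (Linj 1 0 (by rw [← hk₁, h0, L0]))
  have hmulsq : ∀ s : F, IsSquare s → ∀ x, L (s * x) * k₁ = L s * L x := by
    intro s hs x
    by_cases hs0 : s = 0
    · rw [hs0, zero_mul, L0, zero_mul, zero_mul]
    obtain ⟨d, hd, hdτ⟩ := hsqD s hs0 hs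
    obtain ⟨k', -, -, hk'⟩ := hDsq _ (hD d hd)
    have e1 : ∀ x, L (s * x) = k' * L x := by
      intro x
      apply hτinj
      rw [hL, ← hdτ, ← hk', hL]
      group
    have e2 := e1 1
    rw [mul_one] at e2
    rw [e1 x, e2]
    ring
  have hmul : ∀ y x : F, L (y * x) * k₁ = L y * L x := by
    intro y x
    have hy : y = ((y + 1) / 2) * ((y + 1) / 2) - ((y - 1) / 2) * ((y - 1) / 2) := by
      field_simp
      ring
    have h1 := hmulsq (((y + 1) / 2) * ((y + 1) / 2)) ⟨_, rfl⟩ x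
    have h2 := hmulsq (((y - 1) / 2) * ((y - 1) / 2)) ⟨_, rfl⟩ x
    have h3 : L (y * x) = L (((y + 1) / 2) * ((y + 1) / 2) * x) - L (((y - 1) / 2) * ((y - 1) / 2) * x) := by
      rw [← Lsub, ← sub_mul, ← hy]
    have h4 : L y = L (((y + 1) / 2) * ((y + 1) / 2)) - L (((y - 1) / 2) * ((y - 1) / 2)) := by
      rw [← Lsub, ← hy]
    rw [h3, h4, sub_mul, sub_mul, h1, h2]
  let σ : F →+* F :=
    { toFun := fun x => L x / k₁
      map_one' := div_self hk0
      map_mul' := by
        intro x y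
        have := hmul x y
        field_simp
        linear_combination this
      map_zero' := by
        show L 0 / k₁ = 0
        rw [L0, zero_div]
      map_add' := by
        intro x y
        show L (x + y) / k₁ = L x / k₁ + L y / k₁
        rw [Ladd, add_div] }
  have hσ : ∀ x, σ x = L x / k₁ := fun x => rfl
  obtain ⟨s₀, -, -, hs₀⟩ := hDsq _ hh
  have hLL : ∀ a, L (L a) = s₀ * a := by
    intro a
    apply hτinj
    rw [hL, hL, ← hs₀]
    group
  have hσσ : ∀ x, σ (σ x) = σ (σ 1) * x := by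
    intro x
    have e1 := hmul k₁⁻¹ (L x)
    have e2 := hmul k₁⁻¹ (L 1)
    rw [hLL] at e1 e2
    have e3 : σ (σ x) = L (k₁⁻¹ * L x) / k₁ := by
      rw [hσ, hσ, div_eq_inv_mul (L x) k₁]
    have e4 : σ (σ 1) = L (k₁⁻¹ * L 1) / k₁ := by
      rw [hσ, hσ, div_eq_inv_mul (L 1) k₁]
    rw [e3, e4]
    generalize L (k₁⁻¹ * L x) = A at e1 ⊢
    generalize L (k₁⁻¹ * L 1) = B at e2 ⊢
    generalize L k₁⁻¹ = C at e1 e2
    field_simp
    apply mul_right_cancel₀ hk0
    linear_combination e1 - x * e2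
  have hinvol : ∀ x, σ (σ x) = x := by
    intro x
    rw [hσσ, map_one, map_one, one_mul]
  have hid := ringHom_eq_id_of_involutive hp hcard hf σ hinvol
  refine ⟨k₁, hk0, fun a => ?_⟩
  rw [← hL]
  congr 1
  have := hid a
  rw [hσ] at this
  field_simp at this
  rw [this, mul_comm]

end Cfsg.Agent.Lib.Helper19
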