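import Mathlib
import Cfsg.Agent.Lib.Helper19.S3Build
import Cfsg.Agent.Lib.Helper19.PSLCoords
import Cfsg.Agent.Lib.Helper19.Semilinear
import Cfsg.Agent.Lib.Helper19.ZassCore

set_option autoImplicit false

/-! Sharply 3-transitive groups of degree `p ^ f + 1`, `p` and `f` odd. -/

namespace Cfsg.Agent.Lib.Helper19

open MulAction Cfsg Cfsg.Agent.Lib Cfsg.Agent.Lib.Helper6.Zas

variable {G Ω : Type*} [Group G] [MulAction G Ω] {a b c : Ω} {K : Subgroup G} {t u : G}

namespace S3Data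

/-- `u` inverts the kernel in `H` of a linear character which is non-trivial on `H` -/
theorem ker_inverted (s : S3Data G Ω a b c K t u) [Finite G] (lam : G →* ℂˣ) {h₁ : G}
    (hh₁ : h₁ ∈ stabilizer G a ⊓ stabilizer G b) (hne : lam h₁ ≠ 1) :
    ∀ n ∈ (stabilizer G a ⊓ stabilizer G b) ⊓ lam.ker, u * n * u⁻¹ = n⁻¹ := by
  classical
  have hidx := s.relIndex_ker lam hh₁ hne
  set H := stabilizer G a ⊓ stabilizer G b with hH
  set N₀ := H ⊓ lam.ker with hN₀
  have := Fintype.ofFinite H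
  have := Fintype.ofFinite N₀
  have memH : ∀ h : H, (h : G)⁻¹ * (u * h * u⁻¹) ∈ N₀ := by
    intro h
    have ha : (h : G) • a = a := h.2.1
    have hb : (h : G) • b = b := h.2.2
    refine ⟨⟨?_, ?_⟩, ?_⟩
    · show ((h : G)⁻¹ * (u * h * u⁻¹)) • a = a
      rw [s.u_inv, mul_smul, mul_smul, mul_smul, s.ua, hb, s.ub, inv_smul_eq_iff, ha]
    · show ((h : G)⁻¹ * (u * h * u⁻¹)) • b = b
      rw [s.u_inv, mul_smul, mul_smul, mul_smul, s.ub, ha, s.ua, inv_smul_eq_iff, hb]
    · show (h : G)⁻¹ * (u * h * u⁻¹) ∈ lam.ker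
      rw [MonoidHom.mem_ker]
      simp only [map_mul, map_inv]
      rw [mul_comm (lam u), mul_assoc, mul_inv_cancel, mul_one, inv_mul_cancel]
  let F : H → N₀ := fun h => ⟨(h : G)⁻¹ * (u * h * u⁻¹), memH h⟩
  have hfib : ∀ j ∈ (Finset.univ : Finset H).image F,
      ((Finset.univ : Finset H).filter (fun x => F x = j)).card ≤ 2 := by
    intro j hj
    obtain ⟨h, -, rfl⟩ := Finset.mem_image.1 hj
    have hsub : (Finset.univ : Finset H).filter (fun x => F x = F h)
        ⊆ {h, ⟨t, s.tH⟩ * h} := by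
      intro x hx
      simp only [Finset.mem_filter, Finset.mem_univ, true_and] at hx
      have h1 : (x : G)⁻¹ * (u * x * u⁻¹) = (h : G)⁻¹ * (u * h * u⁻¹) := congrArg Subtype.val hx
      have h2 : ((x : G) * (h : G)⁻¹) * u * ((x : G) * (h : G)⁻¹)⁻¹ = u := by
        have h3 : u * x * u⁻¹ = x * (h : G)⁻¹ * (u * h * u⁻¹) := by
          rw [mul_assoc (x : G), ← h1]; group
        have h4 : u * (x * (h : G)⁻¹) = x * (h : G)⁻¹ * u := by
          calc u * (x * (h : G)⁻¹) = (u * x * u⁻¹) * (u * (h : G)⁻¹) := by group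
            _ = x * (h : G)⁻¹ * (u * h * u⁻¹) * (u * (h : G)⁻¹) := by rw [h3]
            _ = x * (h : G)⁻¹ * u := by group
        rw [← h4]; group
      have hxh : (x : G) * (h : G)⁻¹ ∈ H := H.mul_mem x.2 (H.inv_mem h.2)
      have hxa : ((x : G) * (h : G)⁻¹) • a = a := hxh.1
      simp only [Finset.mem_insert, Finset.mem_singleton]
      rcases (s.cent_u (H_le_N hxh)).1 h2 with h5 | h5 | h5 | h5
      · left
        exact Subtype.ext (mul_inv_eq_one.mp h5)
      · right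
        apply Subtype.ext
        show (x : G) = t * h
        rw [← h5]; group
      · exfalso
        rw [h5, s.ua] at hxa
        exact s.z.hab hxa.symm
      · exfalso
        rw [h5, mul_smul, s.ua, s.tb] at hxa
        exact s.z.hab hxa.symm
    exact (Finset.card_le_card hsub).trans Finset.card_le_two
  have h1 := Finset.card_le_mul_card_image (f := F) (Finset.univ : Finset H) 2 hfib
  rw [Finset.card_univ] at h1
  have h3 : Nat.card N₀ * N₀.relIndex H = Nat.card H := by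
    have := Subgroup.relIndex_mul_relIndex ⊥ N₀ H bot_le inf_le_left
    rwa [Subgroup.relIndex_bot_left, Subgroup.relIndex_bot_left] at this
  rw [Nat.card_eq_fintype_card, Nat.card_eq_fintype_card, hidx] at h3
  have h4 : (Finset.univ : Finset H).image F = Finset.univ := by
    apply Finset.eq_univ_of_card
    have : ((Finset.univ : Finset H).image F).card ≤ Fintype.card N₀ := Finset.card_le_univ _
    omega
  intro n hn
  have h5 : (⟨n, hn⟩ : N₀) ∈ (Finset.univ : Finset H).image F := by rw [h4]; exact Finset.mem_univ _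
  obtain ⟨h, -, hh⟩ := Finset.mem_image.1 h5
  have h6 : (h : G)⁻¹ * (u * h * u⁻¹) = n := congrArg Subtype.val hh
  rw [← h6, s.u_inv]
  have huu := s.u2
  calc u * ((h : G)⁻¹ * (u * h * u)) * u = u * (h : G)⁻¹ * u * h * (u * u) := by group
    _ = u * (h : G)⁻¹ * u * h := by rw [huu, mul_one]
    _ = u⁻¹ * (h : G)⁻¹ * u⁻¹ * h := by rw [s.u_inv]
    _ = ((h : G)⁻¹ * (u * h * u))⁻¹ := by group

theorem card_ker (s : S3Data G Ω a b c K t u) [Finite G] (lam : G →* ℂˣ) {h₁ : G}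
    (hh₁ : h₁ ∈ stabilizer G a ⊓ stabilizer G b) (hne : lam h₁ ≠ 1) :
    Nat.card ↥((stabilizer G a ⊓ stabilizer G b) ⊓ lam.ker) * 2
      = Nat.card ↥(stabilizer G a ⊓ stabilizer G b) := by
  have hidx := s.relIndex_ker lam hh₁ hne
  have := Subgroup.relIndex_mul_relIndex ⊥ ((stabilizer G a ⊓ stabilizer G b) ⊓ lam.ker)
    (stabilizer G a ⊓ stabilizer G b) bot_le inf_le_left
  rwa [Subgroup.relIndex_bot_left, Subgroup.relIndex_bot_left, hidx] at this

theorem lam_K (s : S3Data G Ω a b c K t u) [Finite G] (hodd : Odd (Nat.card K)) (lam : G →* ℂˣ)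
    {k : G} (hk : k ∈ K) : lam k = 1 := by
  have h1 := s.z.inverts t s.tH s.t1 s.t2 k hk
  have h2 : lam k = (lam k)⁻¹ := by
    have := congrArg lam h1
    simp only [map_mul, map_inv] at this
    rw [mul_comm (lam t), mul_assoc, mul_inv_cancel, mul_one] at this
    exact this
  have h3 : lam k ^ 2 = 1 := by
    rw [sq]
    nth_rewrite 1 [h2]
    exact inv_mul_cancel _
  have h4 : k ^ (Nat.card K) = 1 := by
    have := pow_card_eq_one' (G := K) (x := ⟨k, hk⟩)
    exact congrArg Subtype.val this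
  obtain ⟨r, hr⟩ := hodd
  have h5 : lam k ^ (2 * r + 1) = 1 := by rw [← map_pow, ← hr, h4, map_one]
  rw [pow_succ, pow_mul, h3, one_pow, one_mul] at h5
  exact h5

theorem u_conj_t (s : S3Data G Ω a b c K t u) [Finite G] : ∃ g : G, g⁻¹ * u * g = t := by
  have htc : c ≠ t • c := by
    intro h
    rcases s.t_fix h.symm with h | h
    · exact s.hca h
    · exact s.hcb h
  obtain ⟨g, hga, hgb⟩ := s.z.base.two s.z.hab htc
  refine ⟨g, ?_⟩
  have hutc : u • t • c = t • c := by rw [← mul_smul, s.tu_comm, mul_smul, s.uc]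
  apply s.t_unique
  · rw [mul_smul, mul_smul, hga, s.uc, ← hga, inv_smul_smul]
  · rw [mul_smul, mul_smul, hgb, hutc, ← hgb, inv_smul_smul]
  · intro h
    have h1 : u = g * (g⁻¹ * u * g) * g⁻¹ := by group
    rw [h] at h1
    have h2 : u = 1 := by rw [h1]; group
    have := s.ua
    rw [h2, one_smul] at this
    exact s.z.hab this
  · have : g⁻¹ * u * g * (g⁻¹ * u * g) = g⁻¹ * (u * u) * g := by group
    rw [this, s.u2]; group

theorem inverts_H (s : S3Data G Ω a b c K t u) [Finite G] [Fintype Ω] {p f : ℕ} (hp : p.Prime)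
    (hf : Odd f) (hΩ : Fintype.card Ω = p ^ f + 1) (heven : Even (Fintype.card Ω)) :
    ∀ h ∈ stabilizer G a ⊓ stabilizer G b, u * h * u⁻¹ = h⁻¹ := by
  classical
  obtain ⟨lam, h₁, hh₁, hne⟩ := s.exists_linear (by rw [Nat.card_eq_fintype_card]; exact heven)
  have hinv := s.ker_inverted lam hh₁ hne
  have hidx := s.relIndex_ker lam hh₁ hne
  have hcardN := s.card_ker lam hh₁ hne
  have hcardH := s.card_H
  have hcardK := s.z.card_K
  rw [Nat.card_eq_fintype_card] at hcardK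
  set H := stabilizer G a ⊓ stabilizer G b with hH
  set N₀ := H ⊓ lam.ker with hN₀
  have hodd : Odd (Nat.card K) := by
    obtain ⟨r, hr⟩ := heven
    exact ⟨r - 1, by omega⟩
  have hsq : ∀ h ∈ H, h * h ∈ N₀ := by
    intro h hh
    have h1 : (N₀.subgroupOf H).index = 2 := hidx
    have h2 := Subgroup.sq_mem_of_index_two h1 (⟨h, hh⟩ : H)
    rw [Subgroup.mem_subgroupOf, sq] at h2
    exact h2
  have hpm : ∀ h ∈ H, lam h = 1 ∨ lam h = -1 := by
    intro h hh
    have h1 : lam (h * h) = 1 := MonoidHom.mem_ker.1 (hsq h hh).2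
    rw [map_mul] at h1
    have h2 : ((lam h : ℂˣ) : ℂ) * (lam h : ℂˣ) = 1 := by
      rw [← Units.val_mul, h1, Units.val_one]
    rcases mul_self_eq_one_iff.1 h2 with h3 | h3
    · left; exact Units.ext h3
    · right; exact Units.ext (by rw [h3]; simp)
  have hut : u * t * u⁻¹ = t := s.t_central s.uN
  by_cases htN : lam t = 1
  · -- coordinates
    have hlu : lam u = 1 := by
      obtain ⟨g, hg⟩ := s.u_conj_t
      rw [← htN, ← hg]
      simp only [map_mul, map_inv]
      rw [mul_comm, ← mul_assoc, mul_inv_cancel, one_mul]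
    have hN₀c : ∀ x ∈ N₀, ∀ y ∈ N₀, x * y = y * x := by
      intro x hx y hy
      have h1 := hinv _ (N₀.mul_mem (N₀.inv_mem hy) (N₀.inv_mem hx))
      have h2 : u * (y⁻¹ * x⁻¹) * u⁻¹ = (u * y⁻¹ * u⁻¹) * (u * x⁻¹ * u⁻¹) := by group
      rw [h2, hinv _ (N₀.inv_mem hy), hinv _ (N₀.inv_mem hx)] at h1
      simpa using h1.symm
    obtain ⟨F, iF, iFt, τ, hτT, hτsurj, hτinj, hτadd, hcF, hF, hDsq, hsqD, c₀, hc₀, hυ⟩ :=
      psl2_coords (G := G) (X := Ω) K N₀ u a b s.z.hab.symm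
        (s.z.K_comm t s.tH s.t1 s.t2) s.z.Kfix s.z.Ktrans
        (fun k hk h => s.z.Kfree k hk b s.z.hab.symm h) hN₀c
        (fun d hd => hd.1.1) (fun d hd => hd.1.2)
        (fun d hd k hk => s.z.Knorm d hd.1.1 k hk)
        (by
          intro x hx y hy hfix
          obtain ⟨k, hk, h, hh, he⟩ := s.z.stab _ hfix
          refine ⟨k, hk, h, ⟨hh, ?_⟩, he⟩
          show h ∈ lam.ker
          rw [MonoidHom.mem_ker]
          have h1 := congrArg lam he
          simp only [map_mul, hlu, s.lam_K hodd lam hx, s.lam_K hodd lam hy, s.lam_K hodd lam hk,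
            one_mul] at h1
          exact h1.symm)
        (fun d hd k hk hk1 hc => s.z.free d hd.1 k hk hk1 hc)
        (by omega) t ⟨s.tH, MonoidHom.mem_ker.2 htN⟩ (s.z.inverts t s.tH s.t1 s.t2)
        s.ua s.ub s.u2 hinv
    have hτ0 : τ 0 = 1 := by
      have := hτadd 0 0
      rw [add_zero] at this
      exact (mul_eq_left.mp this.symm)
    intro h hh
    have ha : h • a = a := hh.1
    have hb : h • b = b := hh.2
    obtain ⟨k, hk0, hk⟩ := semilinear_scalar hF hp (by rw [hcF]; omega) hf K N₀ τ hτT hτsurj hτinj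
      hτadd hDsq hsqD h (fun x hx => s.z.Knorm h ha x hx)
      (by
        intro d hd
        refine ⟨H.mul_mem (H.mul_mem hh hd.1) (H.inv_mem hh), ?_⟩
        show h * d * h⁻¹ ∈ lam.ker
        rw [MonoidHom.mem_ker]
        have : lam d = 1 := MonoidHom.mem_ker.1 hd.2
        simp [this])
      (hsq h hh)
    have hact : ∀ x : F, h • τ x • b = τ (k * x) • b := by
      intro x
      rw [← hk x, mul_smul, mul_smul, inv_smul_eq_iff.mpr hb.symm]
    have hτ1 : τ 1 ≠ 1 := by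
      intro h0
      rw [← hτ0] at h0
      exact one_ne_zero (hτinj h0)
    have hp1 : τ 1 • b ≠ b := fun h0 => hτ1 (s.z.Kfree _ (hτT 1) b s.z.hab.symm h0)
    have hp2 : τ 1 • b ≠ a := s.z.smul_ne (s.z.Kfix _ (hτT 1)) s.z.hab.symm
    have h1 : h * (u * h * u⁻¹) = 1 := by
      apply s.z.base.three _ a b (τ 1 • b) s.z.hab hp1.symm hp2.symm
      · rw [s.u_inv, mul_smul, mul_smul, mul_smul, s.ua, hb, s.ub, ha]
      · rw [s.u_inv, mul_smul, mul_smul, mul_smul, s.ub, ha, s.ua, hb]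
      · rw [s.u_inv, mul_smul, mul_smul, mul_smul, hυ 1 one_ne_zero, hact,
          hυ _ (mul_ne_zero hk0 (div_ne_zero hc₀ one_ne_zero)), hact]
        congr 2
        field_simp
    exact eq_inv_of_mul_eq_one_right h1
  · intro h hh
    by_cases hl : lam h = 1
    · exact hinv h ⟨hh, MonoidHom.mem_ker.2 hl⟩
    · have e1 : lam h = -1 := (hpm h hh).resolve_left hl
      have e2 : lam t = -1 := (hpm t s.tH).resolve_left htN
      have hn : h * t ∈ N₀ := by
        refine ⟨H.mul_mem hh s.tH, ?_⟩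
        show h * t ∈ lam.ker
        rw [MonoidHom.mem_ker, map_mul, e1, e2]
        simp
      have h1 := hinv _ hn
      have h2 : h * t * h⁻¹ = t := s.t_central (H_le_N hh)
      have h3 : u * h * u⁻¹ = (u * (h * t) * u⁻¹) * (u * t * u⁻¹)⁻¹ := by group
      rw [h3, h1, hut]
      have h5 : h * t = t * h := mul_inv_eq_iff_eq_mul.mp h2
      have h4 : t * h⁻¹ = h⁻¹ * t := by
        calc t * h⁻¹ = h⁻¹ * (h * t) * h⁻¹ := by group
          _ = h⁻¹ * (t * h) * h⁻¹ := by rw [h5]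
          _ = h⁻¹ * t := by group
      calc (h * t)⁻¹ * t⁻¹ = t⁻¹ * h⁻¹ * t⁻¹ := by group
        _ = t * h⁻¹ * t := by rw [s.t_inv]
        _ = h⁻¹ * (t * t) := by rw [h4]; group
        _ = h⁻¹ := by rw [s.t2, mul_one]

/-- identification with `PGL(2, F)` when `u` inverts `H` -/
theorem pgl_of_inverts (s : S3Data G Ω a b c K t u) [Finite G] [FaithfulSMul G Ω]
    (hud : ∀ h ∈ stabilizer G a ⊓ stabilizer G b, u * h * u⁻¹ = h⁻¹)
    (h3e : ∀ x₁ x₂ x₃ y₁ y₂ y₃ : Ω, x₁ ≠ x₂ → x₁ ≠ x₃ → x₂ ≠ x₃ → y₁ ≠ y₂ → y₁ ≠ y₃ → y₂ ≠ y₃ →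
      ∃ g : G, g • x₁ = y₁ ∧ g • x₂ = y₂ ∧ g • x₃ = y₃) :
    ∃ (F : Type) (_ : Field F) (_ : Fintype F), Fintype.card F = Nat.card K ∧
      Nonempty (G ≃* Matrix.ProjGenLinGroup (Fin 2) F) := by
  set H := stabilizer G a ⊓ stabilizer G b with hH
  have hHc : ∀ x ∈ H, ∀ y ∈ H, x * y = y * x := by
    intro x hx y hy
    have h1 := hud _ (H.mul_mem (H.inv_mem hy) (H.inv_mem hx))
    have h2 : u * (y⁻¹ * x⁻¹) * u⁻¹ = (u * y⁻¹ * u⁻¹) * (u * x⁻¹ * u⁻¹) := by group
    rw [h2, hud _ (H.inv_mem hy), hud _ (H.inv_mem hx)] at h1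
    simpa using h1.symm
  obtain ⟨e, heK, heb⟩ := s.z.Ktrans c s.hca
  have he1 : e ≠ 1 := by
    rintro rfl
    rw [one_smul] at heb
    exact s.hcb heb.symm
  have huu := s.u2
  refine zassenhaus_core (G := G) (X := Ω) K H u a b s.z.hab.symm
    (s.z.K_comm t s.tH s.t1 s.t2) s.z.Kfix s.z.Ktrans
    (fun k hk h => s.z.Kfree k hk b s.z.hab.symm h) hHc
    (fun d hd => hd.1) (fun d hd => hd.2) (fun d hd k hk => s.z.Knorm d hd.1 k hk)
    e heK he1 ?_ s.ua s.ub hud ?_ h3e
  · intro k hk hk1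
    have h1 : k • b ≠ b := fun h => hk1 (s.z.Kfree k hk b s.z.hab.symm h)
    have h2 : k • b ≠ a := s.z.smul_ne (s.z.Kfix k hk) s.z.hab.symm
    obtain ⟨d, hda, hdb, hdc⟩ := s.Htrans _ h2 h1
    refine ⟨d, ⟨hda, hdb⟩, ?_⟩
    have hdb' : d⁻¹ • b = b := by rw [inv_smul_eq_iff, hdb]
    have h3' : (k⁻¹ * (d * e * d⁻¹)) • b = b := by
      rw [mul_smul, mul_smul, mul_smul, hdb', heb, hdc, inv_smul_smul]
    have h4 := s.z.Kfree _ (K.mul_mem (K.inv_mem hk) (s.z.Knorm d hda e heK)) b s.z.hab.symm h3'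
    exact (inv_mul_eq_one.mp h4).symm
  · rw [eq_top_iff]
    set C := Subgroup.closure ((K : Set G) ∪ (H : Set G) ∪ {u}) with hC
    have hTK : ∀ x ∈ K, x ∈ C := fun x hx => Subgroup.subset_closure (Or.inl (Or.inl hx))
    have hDK : ∀ x ∈ H, x ∈ C := fun x hx => Subgroup.subset_closure (Or.inl (Or.inr hx))
    have huK : u ∈ C := Subgroup.subset_closure (Or.inr rfl)
    have hcase1 : ∀ g : G, g • a = a → g ∈ C := by
      intro g hg
      obtain ⟨k, hk, h, hh, he⟩ := s.z.stab g hg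
      rw [he]
      exact C.mul_mem (hTK k hk) (hDK h hh)
    intro g _
    by_cases hg : g • a = a
    · exact hcase1 g hg
    · obtain ⟨k, hk, hkg⟩ := s.z.Ktrans (g • a) hg
      have h2 : (u * (k⁻¹ * g)) • a = a := by
        rw [mul_smul, mul_smul, ← hkg, inv_smul_smul, s.ub]
      have h3' := hcase1 _ h2
      have : g = k * (u * (u * (k⁻¹ * g))) := by
        calc g = k * ((u * u) * (k⁻¹ * g)) := by rw [huu]; group
          _ = k * (u * (u * (k⁻¹ * g))) := by group
      rw [this]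
      exact C.mul_mem (hTK k hk) (C.mul_mem huK h3')

end S3Data

end Cfsg.Agent.Lib.Helper19
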