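import Mathlib

/-! # A sunflower-type lemma on families of `k`-sets pairwise meeting in `k-1` points (helper19) -/

set_option autoImplicit false

namespace Cfsg.Agent.Lib.Helper19

theorem sunflower {α : Type*} [DecidableEq α] (S : Finset (Finset α)) (k : ℕ) (hk : 1 ≤ k)
    (h1 : ∀ A ∈ S, A.card = k)
    (h2 : ∀ A ∈ S, ∀ B ∈ S, A ≠ B → (A ∩ B).card + 1 = k)
    (h3 : ∀ A ∈ S, ∀ x ∈ A, ∃ B ∈ S, B ≠ A ∧ x ∈ B)
    (θ : α) (h4 : ∀ A ∈ S, θ ∈ A) : S.card ≤ k := by
  by_cases hle : S.card ≤ 1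
  · omega
  push Not at hle
  obtain ⟨A, hA, B, hB, hAB⟩ := Finset.one_lt_card.1 hle
  have hdiff : ∀ X ∈ S, ∀ Y ∈ S, X ≠ Y → (X \ Y).card = 1 := by
    intro X hX Y hY hXY
    have e1 := Finset.card_sdiff_add_card_inter X Y
    have e2 := h2 X hX Y hY hXY
    have e3 := h1 X hX
    omega
  have hsing : ∀ X ∈ S, ∀ Y ∈ S, X ≠ Y → ∀ w ∈ X, w ∉ Y → ∀ v ∈ X, v ≠ w → v ∈ Y := by
    intro X hX Y hY hXY w hwX hwY v hvX hvw
    by_contra hvY
    obtain ⟨y, hy⟩ := Finset.card_eq_one.1 (hdiff X hX Y hY hXY)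
    have a1 : w ∈ X \ Y := Finset.mem_sdiff.2 ⟨hwX, hwY⟩
    have a2 : v ∈ X \ Y := Finset.mem_sdiff.2 ⟨hvX, hvY⟩
    rw [hy, Finset.mem_singleton] at a1 a2
    exact hvw (a2.trans a1.symm)
  obtain ⟨x₁, hx₁⟩ := Finset.card_eq_one.1 (hdiff A hA B hB hAB)
  have hx₁' : x₁ ∈ A \ B := by rw [hx₁]; exact Finset.mem_singleton_self _
  obtain ⟨hx₁A, hx₁B⟩ := Finset.mem_sdiff.1 hx₁'
  obtain ⟨C, hC, hCA, hx₁C⟩ := h3 A hA x₁ hx₁A
  have hCB : C ≠ B := by
    rintro rfl
    exact hx₁B hx₁C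
  set U := A ∪ B with hU
  have hUcard : U.card = k + 1 := by
    have e1 := Finset.card_union_add_card_inter A B
    have e2 := h2 A hA B hB hAB
    have e3 := h1 A hA
    have e4 := h1 B hB
    rw [← hU] at e1
    omega
  have hCU : C ⊆ U := by
    intro v hv
    by_cases hvx : v = x₁
    · rw [hvx]; exact Finset.mem_union_left _ hx₁A
    · exact Finset.mem_union_right _ (hsing C hC B hB hCB x₁ hx₁C hx₁B v hv hvx)
  have hsub : ∀ D ∈ S, D ⊆ U := by
    intro D hD
    by_contra hcon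
    obtain ⟨w, hwD, hwU⟩ := Finset.not_subset.1 hcon
    have hwA : w ∉ A := fun h => hwU (Finset.mem_union_left _ h)
    have hwB : w ∉ B := fun h => hwU (Finset.mem_union_right _ h)
    have hwC : w ∉ C := fun h => hwU (hCU h)
    have hDA : D ≠ A := by rintro rfl; exact hwA hwD
    have hDB : D ≠ B := by rintro rfl; exact hwB hwD
    have hDC : D ≠ C := by rintro rfl; exact hwC hwD
    have hs1 : D.erase w ⊆ (A ∩ B) ∩ C := by
      intro v hv
      obtain ⟨hvw, hvD⟩ := Finset.mem_erase.1 hv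
      rw [Finset.mem_inter, Finset.mem_inter]
      exact ⟨⟨hsing D hD A hA hDA w hwD hwA v hvD hvw, hsing D hD B hB hDB w hwD hwB v hvD hvw⟩,
        hsing D hD C hC hDC w hwD hwC v hvD hvw⟩
    have hs2 : (A ∩ B) ∩ C ⊂ A ∩ B := by
      refine Finset.ssubset_iff_subset_ne.2 ⟨Finset.inter_subset_left, fun heq => ?_⟩
      have hABC : A ∩ B ⊆ C := by
        intro v hv
        rw [← heq] at hv
        exact (Finset.mem_inter.1 hv).2
      have hAC : A ⊆ C := by
        intro v hv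
        by_cases hvB : v ∈ B
        · exact hABC (Finset.mem_inter.2 ⟨hv, hvB⟩)
        · have : v ∈ A \ B := Finset.mem_sdiff.2 ⟨hv, hvB⟩
          rw [hx₁, Finset.mem_singleton] at this
          rw [this]; exact hx₁C
      exact hCA (Finset.eq_of_subset_of_card_le hAC (by rw [h1 A hA, h1 C hC])).symm
    have c1 := Finset.card_le_card hs1
    have c2 := Finset.card_lt_card hs2
    have c3 := Finset.card_erase_of_mem hwD
    have c4 := h1 D hD
    have c5 := h2 A hA B hB hAB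
    omega
  have himg : S ⊆ (U.erase θ).image (fun y => U.erase y) := by
    intro D hD
    have hDU := hsub D hD
    have hc : (U \ D).card = 1 := by
      have := Finset.card_sdiff_add_card_inter U D
      rw [Finset.inter_eq_right.2 hDU, h1 D hD] at this
      omega
    obtain ⟨y, hy⟩ := Finset.card_eq_one.1 hc
    have hy' : y ∈ U \ D := by rw [hy]; exact Finset.mem_singleton_self _
    obtain ⟨hyU, hyD⟩ := Finset.mem_sdiff.1 hy'
    rw [Finset.mem_image]
    refine ⟨y, Finset.mem_erase.2 ⟨fun h => hyD (h ▸ h4 D hD), hyU⟩, ?_⟩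
    ext v
    rw [Finset.mem_erase]
    constructor
    · rintro ⟨hvy, hvU⟩
      by_contra hvD
      have : v ∈ U \ D := Finset.mem_sdiff.2 ⟨hvU, hvD⟩
      rw [hy, Finset.mem_singleton] at this
      exact hvy this
    · intro hvD
      exact ⟨fun h => hyD (h ▸ hvD), hDU hvD⟩
  have hθU : θ ∈ U := Finset.mem_union_left _ (h4 A hA)
  calc S.card ≤ ((U.erase θ).image (fun y => U.erase y)).card := Finset.card_le_card himg
    _ ≤ (U.erase θ).card := Finset.card_image_le
    _ = k := by rw [Finset.card_erase_of_mem hθU, hUcard]; rfl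

end Cfsg.Agent.Lib.Helper19
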