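import Mathlib

/-! # Linear characters trivial on a normal subgroup with abelian quotient (helper19) -/

set_option autoImplicit false

namespace Cfsg.Agent.Lib.Helper19.Suz

theorem card_hom_comm {A : Type*} [Group A] [Finite A] (hc : ∀ x y : A, x * y = y * x) :
    Nat.card (A →* ℂˣ) = Nat.card A := by
  letI : CommGroup A := { ‹Group A› with mul_comm := hc }
  exact CommGroup.card_monoidHom_of_hasEnoughRootsOfUnity A ℂ

open Classical in
theorem sum_hom_comm {A : Type*} [Group A] [Finite A] [Fintype (A →* ℂˣ)]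
    (hc : ∀ x y : A, x * y = y * x) (a : A) :
    ∑ φ : A →* ℂˣ, ((φ a : ℂˣ) : ℂ) = if a = 1 then (Nat.card A : ℂ) else 0 := by
  split_ifs with h
  · subst h
    simp only [map_one, Units.val_one, Finset.sum_const, Finset.card_univ, nsmul_eq_mul, mul_one]
    rw [← card_hom_comm hc, Nat.card_eq_fintype_card]
  · obtain ⟨φ₀, hφ₀⟩ : ∃ φ : A →* ℂˣ, φ a ≠ 1 := by
      letI : CommGroup A := { ‹Group A› with mul_comm := hc }
      exact CommGroup.exists_apply_ne_one_of_hasEnoughRootsOfUnity A ℂ h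
    have h1 : ∑ φ : A →* ℂˣ, ((φ a : ℂˣ) : ℂ) =
        ((φ₀ a : ℂˣ) : ℂ) * ∑ φ : A →* ℂˣ, ((φ a : ℂˣ) : ℂ) := by
      rw [Finset.mul_sum]
      apply Fintype.sum_equiv (Equiv.mulLeft φ₀⁻¹)
      intro φ
      simp
    have h2 : (((φ₀ a : ℂˣ) : ℂ) - 1) * ∑ φ : A →* ℂˣ, ((φ a : ℂˣ) : ℂ) = 0 := by
      linear_combination -h1
    rcases mul_eq_zero.1 h2 with h3 | h3
    · exfalso
      apply hφ₀
      ext
      simpa using sub_eq_zero.1 h3
    · exact h3

variable {N : Type*} [Group N]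

/-- linear characters trivial on `Z` -/
def MZ (Z : Subgroup N) : Type _ := {μ : N →* ℂˣ // ∀ x ∈ Z, μ x = 1}

/-- characters of the quotient -/
def equivMZ (Z : Subgroup N) [Z.Normal] : (N ⧸ Z →* ℂˣ) ≃ MZ Z where
  toFun φ := ⟨φ.comp (QuotientGroup.mk' Z), fun x hx => by
    simp [(QuotientGroup.eq_one_iff x).2 hx]⟩
  invFun μ := QuotientGroup.lift Z μ.1 (fun x hx => μ.2 x hx)
  left_inv φ := by
    apply MonoidHom.ext
    intro x
    induction x using QuotientGroup.induction_on with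
    | H x => rfl
  right_inv μ := by
    apply Subtype.ext
    apply MonoidHom.ext
    intro x
    rfl

instance (Z : Subgroup N) [Finite N] : Finite (MZ Z) := by
  unfold MZ; infer_instance

theorem quot_comm (Z : Subgroup N) [Z.Normal] (hsq : ∀ x : N, x * x ∈ Z) (a b : N ⧸ Z) :
    a * b = b * a := by
  have h1 : ∀ c : N ⧸ Z, c * c = 1 := by
    intro c
    induction c using QuotientGroup.induction_on with
    | H x =>
      rw [← QuotientGroup.mk_mul]
      exact (QuotientGroup.eq_one_iff _).2 (hsq x)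
  have h2 : ∀ c : N ⧸ Z, c⁻¹ = c := fun c => inv_eq_of_mul_eq_one_left (h1 c)
  calc a * b = (a * b)⁻¹ := (h2 _).symm
    _ = b⁻¹ * a⁻¹ := mul_inv_rev a b
    _ = b * a := by rw [h2, h2]

theorem card_MZ [Finite N] (Z : Subgroup N) [Z.Normal] (hsq : ∀ x : N, x * x ∈ Z) :
    Nat.card (MZ Z) * Nat.card Z = Nat.card N := by
  rw [← Nat.card_congr (equivMZ Z), card_hom_comm (quot_comm Z hsq),
    Subgroup.card_eq_card_quotient_mul_card_subgroup Z]

open Classical in
theorem sum_MZ [Finite N] (Z : Subgroup N) [Z.Normal] [Fintype (MZ Z)]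
    (hsq : ∀ x : N, x * x ∈ Z) (x : N) :
    ∑ μ : MZ Z, ((μ.1 x : ℂˣ) : ℂ) = if x ∈ Z then (Nat.card (MZ Z) : ℂ) else 0 := by
  have := Fintype.ofFinite (N ⧸ Z →* ℂˣ)
  have h1 : ∑ μ : MZ Z, ((μ.1 x : ℂˣ) : ℂ) = ∑ φ : N ⧸ Z →* ℂˣ, ((φ (x : N ⧸ Z) : ℂˣ) : ℂ) := by
    symm
    apply Fintype.sum_equiv (equivMZ Z)
    intro φ
    rfl
  rw [h1, sum_hom_comm (quot_comm Z hsq), ← Nat.card_congr (equivMZ Z),
    card_hom_comm (quot_comm Z hsq)]
  by_cases hx : x ∈ Z
  · rw [if_pos hx, if_pos ((QuotientGroup.eq_one_iff x).2 hx)]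
  · rw [if_neg hx, if_neg (fun h => hx ((QuotientGroup.eq_one_iff x).1 h))]

end Cfsg.Agent.Lib.Helper19.Suz
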