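import Cfsg.Agent.Lib.Helper74.Indicator
import Cfsg.Agent.Lib.Helper15.CharTools
import Cfsg.Agent.Lib.Helper58.PermRank

/-! # Frobenius–Schur tightness (helper19) -/

set_option autoImplicit false

namespace Cfsg.Agent.Lib.Helper19

open Cfsg Cfsg.Agent.Lib.Helper15 Cfsg.Agent.Lib.Helper74

variable {G : Type*} [Group G] [Fintype G]

theorem fsInd_expansion [Fintype (IrrCharacter G)] {Ψ : G → ℂ} (hΨ : IsClassFunction G Ψ) :
    fsInd Ψ = ∑ χ : IrrCharacter G, classInner Ψ χ * fsInd (χ : G → ℂ) := by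
  conv_lhs => rw [cf_expansion hΨ]
  unfold fsInd
  simp only [Finset.sum_apply, Pi.smul_apply, smul_eq_mul]
  rw [Finset.sum_comm, Finset.mul_sum]
  apply Finset.sum_congr rfl
  intro χ _
  rw [← Finset.mul_sum]
  ring

/-- If a character has norm `q` and Frobenius–Schur sum `q`, it is multiplicity free and all
its constituents have indicator `+1`. -/
theorem tight {Ψ : G → ℂ} (hΨ : IsCharacter G Ψ) (q : ℕ) (hn : classInner Ψ Ψ = q)
    (hf : fsInd Ψ = q) (χ : IrrCharacter G) :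
    classInner Ψ χ = 0 ∨ (classInner Ψ χ = 1 ∧ fsInd (χ : G → ℂ) = 1) := by
  classical
  have := Fintype.ofFinite (IrrCharacter G)
  have h1 : ∀ χ : IrrCharacter G, ∃ n : ℕ, classInner Ψ χ = n := fun χ =>
    inner_nat hΨ (irr_char χ.2)
  choose a ha using h1
  have h2 : ∀ χ : IrrCharacter G, ∃ n : ℤ, fsInd (χ : G → ℂ) = n ∧ n ≤ 1 := by
    intro χ
    rcases fsInd_cases χ with h | h | h
    · exact ⟨0, by simp [h], by norm_num⟩
    · exact ⟨1, by simp [h], by norm_num⟩
    · exact ⟨-1, by simp [h], by norm_num⟩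
  choose ν hν hν1 using h2
  have e1 : (∑ χ : IrrCharacter G, (a χ : ℤ) ^ 2) = q := by
    have := Cfsg.Agent.Lib.Helper58.classInner_self_eq_sum_sq hΨ a ha
    rw [hn] at this
    have h3 : q = ∑ χ : IrrCharacter G, a χ ^ 2 := by exact_mod_cast this
    rw [h3]; push_cast; rfl
  have e2 : (∑ χ : IrrCharacter G, (a χ : ℤ) * ν χ) = q := by
    have := fsInd_expansion (char_cf hΨ)
    rw [hf] at this
    simp only [ha, hν] at this
    exact_mod_cast this.symm
  have e3 : ∑ χ : IrrCharacter G, (a χ : ℤ) * ((a χ : ℤ) - ν χ) = 0 := by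
    have : ∀ χ : IrrCharacter G, (a χ : ℤ) * ((a χ : ℤ) - ν χ) = (a χ : ℤ) ^ 2 - (a χ : ℤ) * ν χ := by
      intro χ; ring
    rw [Finset.sum_congr rfl (fun χ _ => this χ), Finset.sum_sub_distrib, e1, e2, sub_self]
  have hnn : ∀ χ ∈ (Finset.univ : Finset (IrrCharacter G)),
      0 ≤ (a χ : ℤ) * ((a χ : ℤ) - ν χ) := by
    intro χ _
    rcases Nat.eq_zero_or_pos (a χ) with h | h
    · rw [h]; simp
    · apply mul_nonneg (by positivity)
      have := hν1 χ
      have h' : (1 : ℤ) ≤ a χ := by exact_mod_cast h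
      omega
  have e4 := (Finset.sum_eq_zero_iff_of_nonneg hnn).1 e3 χ (Finset.mem_univ _)
  rcases mul_eq_zero.1 e4 with h | h
  · left
    rw [ha]
    exact_mod_cast h
  · rcases Nat.eq_zero_or_pos (a χ) with h0 | h0
    · left; rw [ha, h0]; simp
    · right
      have := hν1 χ
      have h' : (1 : ℤ) ≤ a χ := by exact_mod_cast h0
      have h5 : (a χ : ℤ) = 1 := by omega
      have h6 : ν χ = 1 := by omega
      refine ⟨?_, ?_⟩
      · rw [ha]; exact_mod_cast h5
      · rw [hν, h6]; simp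

end Cfsg.Agent.Lib.Helper19
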